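import Mathlib
import Cfsg.Agent.S2904

/-!
Finite additive subgroups `T` of a ring of characteristic 2 with `1 ∈ T`, all of whose nonzero elements
are units with inverse in `T` (finite special Jordan division rings of characteristic two) are
commutative.
-/

set_option autoImplicit false
set_option linter.unusedSectionVars false
set_option linter.unusedVariables false

namespace Cfsg.Agent.H84.JDiv

variable {R : Type*} [Ring R]

/-- special Jordan division ring inside `R` -/
structure JT (T : AddSubgroup R) : Prop where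
  one : (1:R) ∈ T
  inv : ∀ x ∈ T, x ≠ 0 → ∃ y ∈ T, x * y = 1 ∧ y * x = 1

theorem inv_unique {x y z : R} (h1 : x * y = 1) (h2 : z * x = 1) : y = z := by
  have : z * (x * y) = z := by rw [h1, mul_one]
  rw [← mul_assoc, h2, one_mul] at this
  exact this

namespace JT

variable {T : AddSubgroup R} (h : JT T)

include h

/-- Hua's identity -/
theorem hua {a b : R} (ha : a ∈ T) (hb : b ∈ T) : a * b * a ∈ T := by
  by_cases ha0 : a = 0
  · subst ha0; simp
  by_cases hb0 : b = 0
  · subst hb0; simp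
  obtain ⟨a', ha', haa, haa'⟩ := h.inv a ha ha0
  obtain ⟨b', hb', hbb, hbb'⟩ := h.inv b hb hb0
  by_cases hab : b' - a = 0
  · have : b' = a := sub_eq_zero.mp hab
    rw [← this, hbb', one_mul]; exact hb'
  obtain ⟨c, hc, hcc, hcc'⟩ := h.inv (b' - a) (T.sub_mem hb' ha) hab
  -- d = a' + c , inverse a - a b a
  have hd : a' + c ∈ T := T.add_mem ha' hc
  have hda : (a' + c) * (a - a * b * a) = 1 := by
    have e1 : a - a * b * a = (b' - a) * (b * a) := by
      rw [sub_mul, ← mul_assoc, hbb', one_mul, ← mul_assoc, ]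
    have e2 : (a' + c) = a' * b' * c := by
      have : a' * (a + (b' - a)) * c = a' * b' * c := by
        congr 2; abel
      rw [← this, mul_add, add_mul, haa', one_mul, mul_assoc, hcc, mul_one, add_comm]
    rw [e1, e2]
    calc a' * b' * c * ((b' - a) * (b * a)) = a' * b' * (c * (b' - a)) * (b * a) := by noncomm_ring
      _ = a' * (b' * b) * a := by rw [hcc']; noncomm_ring
      _ = 1 := by rw [hbb', mul_one, haa']
  by_cases hd0 : a' + c = 0
  · rw [hd0, zero_mul] at hda
    -- trivial ring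
    have : ∀ x : R, x = 0 := fun x => by rw [← mul_one x, ← hda, mul_zero]
    rw [this (a * b * a)]; exact T.zero_mem
  obtain ⟨e, he, hee, hee'⟩ := h.inv _ hd hd0
  have := inv_unique hda hee'
  have h2 : a * b * a = a - e := by rw [← this]; abel
  rw [h2]; exact T.sub_mem ha he

theorem sq_mem {a : R} (ha : a ∈ T) : a * a ∈ T := by
  have := h.hua ha h.one
  rwa [mul_one] at this

theorem bracket_mem (h2 : (2:R) = 0) {a b : R} (ha : a ∈ T) (hb : b ∈ T) : a * b + b * a ∈ T := by
  have e : a * b + b * a = (a + 1) * b * (a + 1) - a * b * a - b := by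
    noncomm_ring
  rw [e]
  exact T.sub_mem (T.sub_mem (h.hua (T.add_mem ha h.one) hb) (h.hua ha hb)) hb

theorem pow_mem {a : R} (ha : a ∈ T) (n : ℕ) : a ^ n ∈ T := by
  induction n using Nat.strong_induction_on with
  | _ n ih =>
    match n with
    | 0 => simpa using h.one
    | 1 => simpa using ha
    | n + 2 =>
      have := h.hua ha (ih n (by omega))
      rw [← pow_succ', ← pow_succ] at this
      exact this

end JT

theorem add_self (h2 : (2:R) = 0) (x : R) : x + x = 0 := by
  rw [← two_mul, h2, zero_mul]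

theorem neg_eq (h2 : (2:R) = 0) (x : R) : -x = x := by
  rw [neg_eq_iff_add_eq_zero, add_self h2]

theorem eq_of_add_eq_zero (h2 : (2:R) = 0) {x y : R} (hh : x + y = 0) : x = y := by
  have := eq_neg_of_add_eq_zero_left hh
  rwa [neg_eq h2] at this

namespace JT

variable {T : AddSubgroup R} (h : JT T) [Nontrivial R]

include h

theorem mul_ne_zero {a b : R} (ha : a ∈ T) (ha0 : a ≠ 0) (hb0 : b ≠ 0) : a * b ≠ 0 := by
  obtain ⟨a', ha', haa, haa'⟩ := h.inv a ha ha0
  intro h0
  apply hb0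
  rw [← one_mul b, ← haa', mul_assoc, h0, mul_zero]

theorem sq_eq_one (h2 : (2:R) = 0) {a : R} (ha : a ∈ T) (h1 : a * a = 1) : a = 1 := by
  by_contra hne
  have hne' : a + 1 ≠ 0 := fun h0 => hne (eq_of_add_eq_zero h2 h0)
  have := h.mul_ne_zero (T.add_mem ha h.one) hne' hne'
  apply this
  have : (a + 1) * (a + 1) = a * a + 1 + (a + a) := by noncomm_ring
  rw [this, h1, add_self h2, add_self h2, add_zero]

/-- the unit attached to a nonzero element of `T` -/
theorem exists_unit {a : R} (ha : a ∈ T) (ha0 : a ≠ 0) : ∃ u : Rˣ, (u:R) = a ∧ ((u⁻¹ : Rˣ) : R) ∈ T := by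
  obtain ⟨a', ha', haa, haa'⟩ := h.inv a ha ha0
  exact ⟨⟨a, a', haa, haa'⟩, rfl, ha'⟩

theorem exists_odd_pow [Finite T] (h2 : (2:R) = 0) {a : R} (ha : a ∈ T) (ha0 : a ≠ 0) :
    ∃ n : ℕ, Odd n ∧ a ^ n = 1 := by
  obtain ⟨u, hu, hu'⟩ := h.exists_unit ha ha0
  have hfin : ∃ m : ℕ, 0 < m ∧ a ^ m = 1 := by
    let f : ℕ → T := fun n => ⟨a ^ n, h.pow_mem ha n⟩
    obtain ⟨m, n, hmn, hf⟩ := Finite.exists_ne_map_eq_of_infinite f
    have key : ∀ m n : ℕ, m < n → a ^ m = a ^ n → ∃ m : ℕ, 0 < m ∧ a ^ m = 1 := by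
      intro m n hlt he
      refine ⟨n - m, by omega, ?_⟩
      have e1 : a ^ n = a ^ m * a ^ (n - m) := by rw [← pow_add]; congr 1; omega
      rw [e1, ← hu, ← Units.val_pow_eq_pow_val, ← Units.val_pow_eq_pow_val, ← Units.val_mul,
        Units.val_inj] at he
      rw [← hu, ← Units.val_pow_eq_pow_val, ← Units.val_one, Units.val_inj]
      exact (left_eq_mul.mp he)
    have hf' : a ^ m = a ^ n := congrArg Subtype.val hf
    rcases lt_or_gt_of_ne hmn with hlt | hlt
    · exact key m n hlt hf'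
    · exact key n m hlt hf'.symm
  obtain ⟨m, hm, hm1⟩ := hfin
  obtain ⟨k, n, hn, hkn⟩ := Nat.exists_eq_two_pow_mul_odd (n := m) (by omega)
  refine ⟨n, hn, ?_⟩
  rw [hkn, mul_comm, pow_mul] at hm1
  have hb : a ^ n ∈ T := h.pow_mem ha n
  generalize a ^ n = b at hm1 hb
  clear hkn
  induction k with
  | zero => simpa using hm1
  | succ k ih =>
    rw [pow_succ, pow_mul, pow_two] at hm1
    exact ih (h.sq_eq_one h2 (h.pow_mem hb _) hm1)

theorem exists_sqrt [Finite T] (h2 : (2:R) = 0) {a : R} (ha : a ∈ T) :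
    ∃ c ∈ T, c * c = a ∧ ∃ n : ℕ, c = a ^ n := by
  by_cases ha0 : a = 0
  · exact ⟨0, T.zero_mem, by simp [ha0], 1, by simp [ha0]⟩
  obtain ⟨n, ⟨k, hk⟩, hn1⟩ := h.exists_odd_pow h2 ha ha0
  refine ⟨a ^ (k+1), h.pow_mem ha _, ?_, k + 1, rfl⟩
  rw [← pow_add]
  have : k + 1 + (k + 1) = n + 1 := by omega
  rw [this, pow_succ, hn1, one_mul]

/-- commuting products -/
theorem mul_mem_of_commute [Finite T] (h2 : (2:R) = 0) {a b : R} (ha : a ∈ T) (hb : b ∈ T)
    (hab : a * b = b * a) : a * b ∈ T := by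
  obtain ⟨c, hc, hcc, n, hn⟩ := h.exists_sqrt h2 ha
  have hcb : c * b = b * c := by
    rw [hn]; exact (Commute.pow_left (show Commute a b from hab) n).eq
  have := h.hua hc hb
  rw [mul_assoc, ← hcb, ← mul_assoc, hcc] at this
  exact this

end JT

end Cfsg.Agent.H84.JDiv
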