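import Cfsg.Agent.H84.JDiv

/-! The structure group of a finite special Jordan division ring of characteristic two. -/

set_option autoImplicit false
set_option linter.unusedSectionVars false

namespace Cfsg.Agent.H84.JDiv

variable {R : Type*} [Ring R] [Nontrivial R]

namespace JT

variable {T : AddSubgroup R} (h : JT T)

include h in
theorem inverse_spec {t : R} (ht : t ∈ T) (h0 : t ≠ 0) :
    t * Ring.inverse t = 1 ∧ Ring.inverse t * t = 1 ∧ Ring.inverse t ∈ T := by
  obtain ⟨u, hu, hu'⟩ := h.exists_unit ht h0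
  rw [← hu, Ring.inverse_unit]
  exact ⟨u.mul_inv, u.inv_mul, hu'⟩

include h in
theorem inverse_mem {t : R} (ht : t ∈ T) : Ring.inverse t ∈ T := by
  by_cases h0 : t = 0
  · rw [h0, Ring.inverse_zero]; exact T.zero_mem
  · exact (h.inverse_spec ht h0).2.2

include h in
theorem inverse_inverse {t : R} (ht : t ∈ T) : Ring.inverse (Ring.inverse t) = t := by
  by_cases h0 : t = 0
  · rw [h0, Ring.inverse_zero, Ring.inverse_zero]
  · obtain ⟨u, hu, hu'⟩ := h.exists_unit ht h0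
    rw [← hu, Ring.inverse_unit, Ring.inverse_unit, inv_inv]

/-- inversion -/
noncomputable def J : Equiv.Perm T :=
  Function.Involutive.toPerm (fun t => ⟨Ring.inverse (t:R), h.inverse_mem t.2⟩)
    (fun t => Subtype.ext (h.inverse_inverse t.2))

theorem J_coe (t : T) : ((h.J t : T) : R) = Ring.inverse (t:R) := rfl

theorem J_J (t : T) : h.J (h.J t) = t := Subtype.ext (h.inverse_inverse t.2)

theorem J_mul_J : h.J * h.J = 1 := Equiv.ext fun t => h.J_J t

/-- core operation `x y⁻¹ x` -/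
noncomputable def core (x y : T) : T :=
  ⟨(x:R) * Ring.inverse (y:R) * x, h.hua x.2 (h.inverse_mem y.2)⟩

theorem core_coe (x y : T) : ((h.core x y : T) : R) = (x:R) * Ring.inverse (y:R) * x := rfl

/-- the identity -/
def one' : T := ⟨1, h.one⟩

theorem one'_coe : ((h.one' : T) : R) = 1 := rfl

theorem one'_ne : h.one' ≠ 0 := fun h0 => one_ne_zero (congrArg Subtype.val h0)

theorem core_one (y : T) : h.core h.one' y = h.J y := by
  apply Subtype.ext
  rw [core_coe, one'_coe, J_coe, one_mul, mul_one]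

/-- structure group -/
def Gam : Subgroup (Equiv.Perm T) where
  carrier := {g | (∀ x y, g (x + y) = g x + g y) ∧ ∀ x y, g (h.core x y) = h.core (g x) (g y)}
  mul_mem' := by
    rintro a b ⟨ha, ha'⟩ ⟨hb, hb'⟩
    exact ⟨fun x y => by rw [Equiv.Perm.mul_apply, hb, ha]; rfl,
      fun x y => by rw [Equiv.Perm.mul_apply, hb', ha']; rfl⟩
  one_mem' := ⟨fun _ _ => rfl, fun _ _ => rfl⟩
  inv_mem' := by
    rintro a ⟨ha, ha'⟩
    refine ⟨fun x y => ?_, fun x y => ?_⟩
    · apply a.injective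
      rw [ha]
      simp
    · apply a.injective
      rw [ha']
      simp

theorem Gam_zero {g : Equiv.Perm T} (hg : g ∈ h.Gam) : g 0 = 0 := by
  have := hg.1 0 0
  rw [add_zero] at this
  exact (left_eq_add.mp this)

theorem Gam_ne {g : Equiv.Perm T} (hg : g ∈ h.Gam) {x : T} (hx : x ≠ 0) : g x ≠ 0 := fun h0 =>
  hx (g.injective (h0.trans (h.Gam_zero hg).symm))

/-- `U_a : t ↦ a t a` -/
noncomputable def U (a : T) (ha : a ≠ 0) : Equiv.Perm T where
  toFun t := ⟨(a:R) * t * a, h.hua a.2 t.2⟩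
  invFun t := ⟨Ring.inverse (a:R) * t * Ring.inverse (a:R), h.hua (h.inverse_mem a.2) t.2⟩
  left_inv t := by
    have ha' : (a:R) ≠ 0 := fun h0 => ha (Subtype.ext h0)
    obtain ⟨e1, e2, e3⟩ := h.inverse_spec a.2 ha'
    apply Subtype.ext
    change Ring.inverse (a:R) * ((a:R) * t * a) * Ring.inverse (a:R) = t
    calc Ring.inverse (a:R) * ((a:R) * t * a) * Ring.inverse (a:R)
        = (Ring.inverse (a:R) * (a:R)) * t * (a * Ring.inverse (a:R)) := by noncomm_ring
      _ = t := by rw [e1, e2, one_mul, mul_one]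
  right_inv t := by
    have ha' : (a:R) ≠ 0 := fun h0 => ha (Subtype.ext h0)
    obtain ⟨e1, e2, e3⟩ := h.inverse_spec a.2 ha'
    apply Subtype.ext
    change (a:R) * (Ring.inverse (a:R) * t * Ring.inverse (a:R)) * a = t
    calc (a:R) * (Ring.inverse (a:R) * t * Ring.inverse (a:R)) * a
        = ((a:R) * Ring.inverse (a:R)) * t * (Ring.inverse (a:R) * a) := by noncomm_ring
      _ = t := by rw [e1, e2, one_mul, mul_one]

theorem U_coe (a : T) (ha : a ≠ 0) (t : T) : ((h.U a ha t : T) : R) = (a:R) * t * a := rfl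

theorem U_J (a : T) (ha : a ≠ 0) (t : T) : h.U a ha (h.J t) = h.core a t := rfl

theorem inverse_mul3 {a b c : R} (ha : IsUnit a) (hb : IsUnit b) (hc : IsUnit c) :
    Ring.inverse (a * b * c) = Ring.inverse c * Ring.inverse b * Ring.inverse a := by
  obtain ⟨a, rfl⟩ := ha
  obtain ⟨b, rfl⟩ := hb
  obtain ⟨c, rfl⟩ := hc
  rw [← Units.val_mul, ← Units.val_mul, Ring.inverse_unit, Ring.inverse_unit, Ring.inverse_unit,
    Ring.inverse_unit, ← Units.val_mul, ← Units.val_mul]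
  simp [mul_assoc]

include h in
theorem isUnit' {t : R} (ht : t ∈ T) (h0 : t ≠ 0) : IsUnit t := by
  obtain ⟨u, hu, hu'⟩ := h.exists_unit ht h0
  exact ⟨u, hu⟩

theorem U_mem (a : T) (ha : a ≠ 0) : h.U a ha ∈ h.Gam := by
  have ha' : (a:R) ≠ 0 := fun h0 => ha (Subtype.ext h0)
  obtain ⟨e1, e2, e3⟩ := h.inverse_spec a.2 ha'
  refine ⟨fun x y => ?_, fun x y => ?_⟩
  · apply Subtype.ext
    change (a:R) * (x + y) * a = a * x * a + a * y * a
    noncomm_ring
  · apply Subtype.ext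
    change (a:R) * ((x:R) * Ring.inverse (y:R) * x) * a =
      ((a:R) * x * a) * Ring.inverse ((a:R) * y * a) * ((a:R) * x * a)
    by_cases hy : (y:R) = 0
    · simp [hy]
    · rw [inverse_mul3 (h.isUnit' a.2 ha') (h.isUnit' y.2 hy) (h.isUnit' a.2 ha')]
      calc (a:R) * ((x:R) * Ring.inverse (y:R) * x) * a
          = (a:R) * x * 1 * Ring.inverse (y:R) * 1 * x * a := by noncomm_ring
        _ = (a:R) * x * ((a:R) * Ring.inverse (a:R)) * Ring.inverse (y:R) *
            (Ring.inverse (a:R) * a) * x * a := by rw [e1, e2]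
        _ = _ := by noncomm_ring

theorem JgJ {g : Equiv.Perm T} (hg : g ∈ h.Gam) :
    h.J * g * h.J = (h.U (g h.one') (h.Gam_ne hg h.one'_ne))⁻¹ * g := by
  rw [eq_inv_mul_iff_mul_eq]
  apply Equiv.ext
  intro y
  change h.U (g h.one') (h.Gam_ne hg h.one'_ne) (h.J (g (h.J y))) = g y
  rw [U_J, ← hg.2, core_one, J_J]

theorem JgJ_mem {g : Equiv.Perm T} (hg : g ∈ h.Gam) : h.J * g * h.J ∈ h.Gam := by
  rw [h.JgJ hg]
  exact h.Gam.mul_mem (h.Gam.inv_mem (h.U_mem _ _)) hg

/-- conjugation by `J` -/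
noncomputable def phi : MulAut h.Gam where
  toFun g := ⟨h.J * g * h.J, h.JgJ_mem g.2⟩
  invFun g := ⟨h.J * g * h.J, h.JgJ_mem g.2⟩
  left_inv g := by
    apply Subtype.ext
    change h.J * (h.J * g * h.J) * h.J = g
    calc h.J * (h.J * g * h.J) * h.J = (h.J * h.J) * g * (h.J * h.J) := by group
      _ = g := by rw [J_mul_J, one_mul, mul_one]
  right_inv g := by
    apply Subtype.ext
    change h.J * (h.J * g * h.J) * h.J = g
    calc h.J * (h.J * g * h.J) * h.J = (h.J * h.J) * g * (h.J * h.J) := by group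
      _ = g := by rw [J_mul_J, one_mul, mul_one]
  map_mul' a b := by
    apply Subtype.ext
    change h.J * (a * b) * h.J = (h.J * a * h.J) * (h.J * b * h.J)
    calc h.J * ((a : Equiv.Perm T) * b) * h.J = h.J * a * 1 * b * h.J := by group
      _ = h.J * a * (h.J * h.J) * b * h.J := by rw [J_mul_J]
      _ = _ := by group

theorem phi_coe (g : h.Gam) : ((h.phi g : h.Gam) : Equiv.Perm T) = h.J * g * h.J := rfl

theorem phi_phi (g : h.Gam) : h.phi (h.phi g) = g := by
  apply Subtype.ext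
  change h.J * (h.J * g * h.J) * h.J = g
  calc h.J * (h.J * g * h.J) * h.J = (h.J * h.J) * g * (h.J * h.J) := by group
    _ = g := by rw [J_mul_J, one_mul, mul_one]

/-- `U_{g 1} = g φ(g)⁻¹` -/
theorem U_eq (g : h.Gam) : (⟨h.U ((g : Equiv.Perm T) h.one') (h.Gam_ne g.2 h.one'_ne), h.U_mem _ _⟩ : h.Gam)
    = g * (h.phi g)⁻¹ := by
  apply Subtype.ext
  change h.U ((g : Equiv.Perm T) h.one') (h.Gam_ne g.2 h.one'_ne) = (g : Equiv.Perm T) * (h.J * g * h.J)⁻¹
  rw [h.JgJ g.2, mul_inv_rev, inv_inv, ← mul_assoc, mul_inv_cancel, one_mul]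

/-! ### stabilizer of one -/

theorem comm_J {s : Equiv.Perm T} (hs : s ∈ h.Gam) (h1 : s h.one' = h.one') (y : T) :
    s (h.J y) = h.J (s y) := by
  rw [← core_one, hs.2, h1, core_one]

theorem map_U {s : Equiv.Perm T} (hs : s ∈ h.Gam) (h1 : s h.one' = h.one') (a : T) (ha : a ≠ 0) (y : T) :
    s (h.U a ha y) = h.U (s a) (h.Gam_ne hs ha) (s y) := by
  have := hs.2 a (h.J y)
  rw [← U_J h a ha, J_J, h.comm_J hs h1, ← U_J h (s a) (h.Gam_ne hs ha), J_J] at this
  exact this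

/-- fixed points -/
def fixT (s : Equiv.Perm T) (hs : s ∈ h.Gam) : AddSubgroup R where
  carrier := {t | ∃ ht : t ∈ T, s ⟨t, ht⟩ = ⟨t, ht⟩}
  zero_mem' := ⟨T.zero_mem, h.Gam_zero hs⟩
  add_mem' := by
    rintro a b ⟨ha, ha'⟩ ⟨hb, hb'⟩
    refine ⟨T.add_mem ha hb, ?_⟩
    have := hs.1 ⟨a, ha⟩ ⟨b, hb⟩
    rw [ha', hb'] at this
    exact this
  neg_mem' := by
    rintro a ⟨ha, ha'⟩
    refine ⟨T.neg_mem ha, ?_⟩
    have := hs.1 ⟨a, ha⟩ (-⟨a, ha⟩)
    rw [ha', add_neg_cancel, h.Gam_zero hs] at this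
    exact (neg_eq_of_add_eq_zero_right this.symm).symm

theorem fixT_le (s : Equiv.Perm T) (hs : s ∈ h.Gam) : h.fixT s hs ≤ T := fun _ hx => hx.1

theorem fixT_JT {s : Equiv.Perm T} (hs : s ∈ h.Gam) (h1 : s h.one' = h.one') : JT (h.fixT s hs) where
  one := ⟨h.one, h1⟩
  inv := by
    rintro x ⟨hx, hx'⟩ h0
    obtain ⟨e1, e2, e3⟩ := h.inverse_spec hx h0
    refine ⟨Ring.inverse x, ⟨e3, ?_⟩, e1, e2⟩
    have := h.comm_J hs h1 ⟨x, hx⟩
    rw [hx'] at this
    exact this

theorem eq_one_of_fixT {s : Equiv.Perm T} (hs : s ∈ h.Gam) (hf : h.fixT s hs = T) : s = 1 := by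
  apply Equiv.ext
  intro t
  have ht : (t:R) ∈ h.fixT s hs := by rw [hf]; exact t.2
  obtain ⟨_, h'⟩ := ht
  exact h'

end JT

end Cfsg.Agent.H84.JDiv
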