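import Cfsg.Agent.H84.JDiv2

/-! Commutativity of finite special Jordan division rings of characteristic two. -/

set_option autoImplicit false
set_option linter.unusedSectionVars false
set_option linter.style.haveILetI false

namespace Cfsg.Agent.H84.JDiv

variable {R : Type*} [Ring R] [Nontrivial R]

/-- commutative subset -/
def Com (T : AddSubgroup R) : Prop := ∀ x ∈ T, ∀ y ∈ T, x * y = y * x

namespace JT

variable {T : AddSubgroup R} (h : JT T)

theorem finite_of_le {B T : AddSubgroup R} [Finite T] (hB : B ≤ T) : Finite B :=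
  Finite.of_injective _ (AddSubgroup.inclusion_injective hB)

include h in
theorem two_dvd_card [Finite T] (h2 : (2:R) = 0) : 2 ∣ Nat.card T := by
  have h1 : addOrderOf h.one' = 2 := by
    apply addOrderOf_eq_prime
    · apply Subtype.ext
      change (2 : ℕ) • (1:R) = 0
      rw [two_nsmul, add_self h2]
    · exact h.one'_ne
  rw [← h1]
  exact addOrderOf_dvd_natCard _

section min

variable [Finite T] (h2 : (2:R) = 0)
  (hmin : ∀ B : AddSubgroup R, B ≤ T → B ≠ T → JT B → Com B) (hnc : ¬ Com T)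

include h2 hmin hnc

theorem inv_stab {s : Equiv.Perm T} (hs : s ∈ h.Gam) (h1 : s h.one' = h.one') (hss : s * s = 1) :
    s = 1 := by
  by_contra hs1
  have hFJ := h.fixT_JT hs h1
  have hFT : h.fixT s hs ≠ T := fun hf => hs1 (h.eq_one_of_fixT hs hf)
  have hFle := h.fixT_le s hs
  have hFc := hmin _ hFle hFT hFJ
  haveI : Finite (h.fixT s hs) := finite_of_le hFle
  have hss' : ∀ t, s (s t) = t := fun t => by
    have := congrArg (fun e : Equiv.Perm T => e t) hss
    exact this
  obtain ⟨t₀, ht₀⟩ : ∃ t₀, s t₀ ≠ t₀ := by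
    by_contra hcon
    push Not at hcon
    exact hs1 (Equiv.ext hcon)
  -- trace of t₀
  have memF : ∀ x : T, (x:R) ∈ h.fixT s hs ↔ s x = x := fun x =>
    ⟨fun ⟨_, hx⟩ => hx, fun hx => ⟨x.2, hx⟩⟩
  have hN : ∀ u : T, ((u + s u : T) : R) ∈ h.fixT s hs := fun u => by
    rw [memF, hs.1, hss', add_comm]
  have hf0 : ((t₀ + s t₀ : T) : R) ≠ 0 := fun h0 => ht₀ (Subtype.ext (eq_of_add_eq_zero h2 h0).symm)
  obtain ⟨a, haF, haa, -⟩ := hFJ.exists_sqrt h2 (hFJ.inverse_mem (hN t₀))
  obtain ⟨i1, i2, i3⟩ := hFJ.inverse_spec (hN t₀) hf0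
  have ha0 : a ≠ 0 := by
    rintro rfl
    rw [← haa, mul_zero, mul_zero] at i1
    exact zero_ne_one i1
  have haT := hFle haF
  set a' : T := ⟨a, haT⟩ with ha'
  have ha'0 : a' ≠ 0 := fun h0 => ha0 (congrArg Subtype.val h0)
  have hsa : s a' = a' := (memF a').mp haF
  set t : T := h.U a' ha'0 t₀ with ht
  have hst : ((s t : T) : R) = t + 1 := by
    have e1 : s t = h.U a' ha'0 (s t₀) := by
      rw [ht, h.map_U hs h1]
      congr 1
      simp only [hsa]
    have e2 : ((s t : T) : R) + t = 1 := by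
      rw [e1, ht, U_coe, U_coe]
      have e3 : a * (s t₀ : T) * a + a * (t₀ : R) * a = a * ((t₀ + s t₀ : T) : R) * a := by
        push_cast
        noncomm_ring
      change a * (s t₀ : T) * a + a * (t₀ : R) * a = 1
      rw [e3, mul_assoc, hFc _ (hN t₀) _ haF, ← mul_assoc, haa, i2]
    have : ((s t : T) : R) = (s t : T) + t + t := by rw [add_assoc, add_self h2, add_zero]
    rw [this, e2, add_comm]
  have hst' : s t = t + h.one' := Subtype.ext hst
  have ht0 : t ≠ 0 := by
    intro h0
    rw [h0, h.Gam_zero hs, zero_add] at hst'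
    exact h.one'_ne hst'.symm
  have ht1 : t + h.one' ≠ 0 := by rw [← hst']; exact h.Gam_ne hs ht0
  have hst1 : s (t + h.one') = t := by rw [← hst', hss']
  -- derivation
  have hD : ∀ f ∈ h.fixT s hs, (t:R) * f + f * t ∈ h.fixT s hs := by
    intro f hf
    have hfT := hFle hf
    set f' : T := ⟨f, hfT⟩
    have hsf : s f' = f' := (memF f').mp hf
    have key : (t:R) * f + f * t = ((h.U (t + h.one') ht1 f' + h.U t ht0 f' + f' : T) : R) := by
      push_cast
      rw [U_coe, U_coe]
      push_cast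
      rw [one'_coe]
      change (t:R) * f + f * t = (t + 1) * f * (t + 1) + t * f * t + f
      have : ((t:R) + 1) * f * (t + 1) + t * f * t + f =
        (t * f * t + t * f * t) + (f + f) + (t * f + f * t) := by noncomm_ring
      rw [this, add_self h2, add_self h2, zero_add, zero_add]
    rw [key, memF, hs.1, hs.1, h.map_U hs h1, h.map_U hs h1, hsf]
    congr 1
    rw [add_comm]
    congr 1
    · congr 2
    · congr 2
  have hcomm : ∀ f ∈ h.fixT s hs, (t:R) * f = f * t := by
    intro g hg
    obtain ⟨f, hf, hff, -⟩ := hFJ.exists_sqrt h2 hg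
    apply eq_of_add_eq_zero h2
    rw [← hff]
    have e1 : (t:R) * (f * f) + f * f * t = (t * f + f * t) * f + f * (t * f + f * t) := by
      have : ((t:R) * f + f * t) * f + f * (t * f + f * t) =
        t * (f * f) + f * f * t + (f * t * f + f * t * f) := by noncomm_ring
      rw [this, add_self h2, add_zero]
    rw [e1, hFc _ (hD f hf) _ hf, add_self h2]
  -- decomposition
  have hdec : ∀ u : T, ∃ v ∈ h.fixT s hs, ∃ b ∈ h.fixT s hs, (u:R) = v + b * t * b := by
    intro u
    obtain ⟨b, hb, hbb, -⟩ := hFJ.exists_sqrt h2 (hN u)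
    have hbT := hFle hb
    refine ⟨u + b * t * b, ?_, b, hb, ?_⟩
    · by_cases hb0 : b = 0
      · have h0 : ((u + s u : T) : R) = 0 := by rw [← hbb, hb0, mul_zero]
        have : s u = u := Subtype.ext (eq_of_add_eq_zero h2 h0).symm
        rw [hb0, mul_zero, add_zero]
        exact (memF u).mpr this
      · set b' : T := ⟨b, hbT⟩ with hb'
        have hb'0 : b' ≠ 0 := fun h0 => hb0 (congrArg Subtype.val h0)
        have hsb : s b' = b' := (memF b').mp hb
        have e0 : (u:R) + b * t * b = ((u + h.U b' hb'0 t : T) : R) := rfl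
        rw [e0, memF, hs.1, h.map_U hs h1]
        apply Subtype.ext
        push_cast
        have e1 : ((h.U (s b') (h.Gam_ne hs hb'0) (s t) : T) : R) = b * (t + 1) * b := by
          rw [U_coe, hst]
          rw [hsb]
        have e2 : ((h.U b' hb'0 t : T) : R) = b * t * b := rfl
        rw [e1, e2]
        have e3 : b * ((t:R) + 1) * b = b * t * b + b * b := by noncomm_ring
        rw [e3, hbb]
        push_cast
        have : ((s u : T) : R) + (b * t * b + (u + (s u : T))) = u + b * t * b + ((s u : T) + (s u : T)) := by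
          abel
        rw [this, add_self h2, add_zero]
    · have : (u:R) + b * t * b + b * t * b = u + (b * t * b + b * t * b) := by abel
      rw [this, add_self h2, add_zero]
  apply hnc
  intro x hx y hy
  obtain ⟨v, hv, b, hb, e1⟩ := hdec ⟨x, hx⟩
  obtain ⟨w, hw, c, hc, e2⟩ := hdec ⟨y, hy⟩
  have e1' : x = v + b * t * b := e1
  have e2' : y = w + c * t * c := e2
  rw [e1', e2']
  have cF : ∀ x ∈ h.fixT s hs, ∀ y ∈ h.fixT s hs, Commute x y := fun x hx y hy => hFc x hx y hy
  have ct : ∀ x ∈ h.fixT s hs, Commute x (t:R) := fun x hx => (hcomm x hx).symm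
  have c1 : ∀ x ∈ h.fixT s hs, ∀ b ∈ h.fixT s hs, Commute x (b * t * b) := fun x hx b hb =>
    ((cF x hx b hb).mul_right (ct x hx)).mul_right (cF x hx b hb)
  have c2 : Commute (b * (t:R) * b) (c * t * c) := by
    refine ((Commute.mul_left (Commute.mul_left ?_ ?_) ?_))
    · exact c1 b hb c hc
    · exact ((ct c hc).symm.mul_right (Commute.refl _)).mul_right (ct c hc).symm
    · exact c1 b hb c hc
  exact (((cF v hv w hw).add_right (c1 v hv c hc)).add_left
    (((c1 w hw b hb).symm).add_right c2)).eq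

theorem no_inv {g : Equiv.Perm T} (hg : g ∈ h.Gam) (hgg : g * g = 1) : g = 1 := by
  classical
  haveI : Fintype T := Fintype.ofFinite T
  haveI : Fact (Nat.Prime 2) := ⟨Nat.prime_two⟩
  obtain ⟨k, hk, hk0⟩ := Equiv.Perm.exists_fixed_point_of_prime' (p := 2) (n := 1) (σ := g) (a := (0:T))
    (by rw [← Nat.card_eq_fintype_card]; exact h.two_dvd_card h2) (by rw [pow_one, pow_two, hgg])
    (h.Gam_zero hg)
  obtain ⟨c, hc, hcc, -⟩ := h.exists_sqrt h2 k.2
  set c' : T := ⟨c, hc⟩
  have hc0 : c' ≠ 0 := by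
    intro h0
    have : c = 0 := congrArg Subtype.val h0
    apply hk0
    apply Subtype.ext
    rw [← hcc, this, mul_zero]
    rfl
  have hU1 : h.U c' hc0 h.one' = k := by
    apply Subtype.ext
    rw [U_coe, one'_coe, mul_one]
    exact hcc
  have hUm := h.U_mem c' hc0
  have := h.inv_stab h2 hmin hnc (s := (h.U c' hc0)⁻¹ * g * h.U c' hc0)
    (h.Gam.mul_mem (h.Gam.mul_mem (h.Gam.inv_mem hUm) hg) hUm)
    (by
      rw [Equiv.Perm.mul_apply, Equiv.Perm.mul_apply, hU1, hk, Equiv.Perm.inv_eq_iff_eq, hU1])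
    (by
      calc (h.U c' hc0)⁻¹ * g * h.U c' hc0 * ((h.U c' hc0)⁻¹ * g * h.U c' hc0)
          = (h.U c' hc0)⁻¹ * (g * g) * h.U c' hc0 := by group
        _ = 1 := by rw [hgg]; group)
  have h3 : g = h.U c' hc0 * ((h.U c' hc0)⁻¹ * g * h.U c' hc0) * (h.U c' hc0)⁻¹ := by group
  rw [h3, this]; group

theorem odd_card : Odd (Nat.card h.Gam) := by
  rw [← Nat.not_even_iff_odd, even_iff_two_dvd]
  intro h2'
  haveI : Fact (Nat.Prime 2) := ⟨Nat.prime_two⟩
  haveI : Finite h.Gam := inferInstance
  obtain ⟨g, hg⟩ := exists_prime_orderOf_dvd_card' 2 h2'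
  have h1 : g ^ 2 = 1 := by rw [← hg]; exact pow_orderOf_eq_one g
  have h3 : g ≠ 1 := by
    intro h0; rw [h0, orderOf_one] at hg; omega
  apply h3
  apply Subtype.ext
  apply h.no_inv h2 hmin hnc g.2
  have := congrArg Subtype.val h1
  rw [pow_two] at this
  exact this

/-- an invariant Sylow subgroup -/
theorem exists_sylow (r : ℕ) [Fact r.Prime] :
    ∃ P : Sylow r h.Gam, ∀ u ∈ P, h.phi u ∈ P := by
  classical
  haveI : Finite h.Gam := inferInstance
  haveI : Fact (Nat.Prime 2) := ⟨Nat.prime_two⟩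
  haveI : Finite (Sylow r h.Gam) := inferInstance
  haveI : Fintype (Sylow r h.Gam) := Fintype.ofFinite _
  have P0 : Sylow r h.Gam := default
  have hodd : ¬ 2 ∣ Fintype.card (Sylow r h.Gam) := by
    intro hd
    have h1 : 2 ∣ Nat.card h.Gam := by
      rw [← Nat.card_eq_fintype_card] at hd
      exact hd.trans ((Sylow.card_dvd_index P0).trans (Subgroup.index_dvd_card _))
    exact (Nat.not_even_iff_odd.mpr (h.odd_card h2 hmin hnc)) (even_iff_two_dvd.mpr h1)
  have hφ : h.phi * h.phi = 1 := MulEquiv.ext fun g => h.phi_phi g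
  obtain ⟨P, hP⟩ := Equiv.Perm.exists_fixed_point_of_prime (p := 2) (n := 1)
    (σ := (MulAction.toPerm h.phi : Equiv.Perm (Sylow r h.Gam))) hodd (by
      rw [pow_one, pow_two]
      apply Equiv.ext
      intro P
      change h.phi • h.phi • P = P
      rw [← mul_smul, hφ, one_smul])
  refine ⟨P, fun u hu => ?_⟩
  have hP' : h.phi • P = P := hP
  rw [← hP']
  change h.phi u ∈ ((h.phi • P : Sylow r h.Gam) : Subgroup h.Gam)
  rw [Sylow.pointwise_smul_def]
  exact Subgroup.smul_mem_pointwise_smul u h.phi _ hu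

end min

end JT

end Cfsg.Agent.H84.JDiv
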