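import Cfsg.Agent.H84.JDiv3

/-! Commutativity of finite special Jordan division rings of characteristic two: main theorem. -/

set_option autoImplicit false
set_option linter.unusedSectionVars false
set_option linter.style.haveILetI false

namespace Cfsg.Agent.H84.JDiv

variable {R : Type*} [Ring R] [Nontrivial R]

namespace JT

variable {T : AddSubgroup R} (h : JT T)

/-- the relative centralizer -/
def cT (T : AddSubgroup R) (S : Set R) : AddSubgroup R where
  carrier := {t | t ∈ T ∧ ∀ x ∈ S, t * x = x * t}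
  zero_mem' := ⟨T.zero_mem, fun x _ => by simp⟩
  add_mem' := by
    rintro a b ⟨ha, ha'⟩ ⟨hb, hb'⟩
    exact ⟨T.add_mem ha hb, fun x hx => by rw [add_mul, mul_add, ha' x hx, hb' x hx]⟩
  neg_mem' := by
    rintro a ⟨ha, ha'⟩
    exact ⟨T.neg_mem ha, fun x hx => by rw [neg_mul, mul_neg, ha' x hx]⟩

include h in
theorem cT_JT (S : Set R) : JT (cT T S) where
  one := ⟨h.one, fun x _ => by simp⟩
  inv := by
    rintro t ⟨ht, ht'⟩ h0
    obtain ⟨e1, e2, e3⟩ := h.inverse_spec ht h0
    refine ⟨Ring.inverse t, ⟨e3, fun x hx => ?_⟩, e1, e2⟩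
    calc Ring.inverse t * x = Ring.inverse t * x * (t * Ring.inverse t) := by rw [e1, mul_one]
      _ = Ring.inverse t * (x * t) * Ring.inverse t := by noncomm_ring
      _ = Ring.inverse t * (t * x) * Ring.inverse t := by rw [ht' x hx]
      _ = (Ring.inverse t * t) * x * Ring.inverse t := by noncomm_ring
      _ = x * Ring.inverse t := by rw [e2, one_mul]

theorem cT_le (T : AddSubgroup R) (S : Set R) : cT T S ≤ T := fun _ hx => hx.1

include h in
/-- the multiplicative group of a commutative `B` -/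
theorem pow_card_sub_one [Finite T] (h2 : (2:R) = 0) (hc : Com T) {a : R} (ha : a ∈ T) (ha0 : a ≠ 0) :
    a ^ (Nat.card T - 1) = 1 := by
  classical
  let K : Subgroup Rˣ :=
    { carrier := {u | (u:R) ∈ T}
      mul_mem' := by
        intro u v hu hv
        change ((u * v : Rˣ) : R) ∈ T
        rw [Units.val_mul]
        exact h.mul_mem_of_commute h2 hu hv (hc _ hu _ hv)
      one_mem' := h.one
      inv_mem' := by
        intro u hu
        have := h.inverse_mem (t := (u:R)) hu
        rwa [Ring.inverse_unit] at this }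
  have e : K ≃ {t : T // t ≠ 0} :=
    { toFun := fun u => ⟨⟨(u : Rˣ), u.2⟩, fun h0 => (u : Rˣ).ne_zero (congrArg Subtype.val h0)⟩
      invFun := fun t => ⟨(h.exists_unit t.1.2 (fun h0 => t.2 (Subtype.ext h0))).choose, by
        change (((h.exists_unit t.1.2 (fun h0 => t.2 (Subtype.ext h0))).choose : Rˣ) : R) ∈ T
        rw [(h.exists_unit t.1.2 (fun h0 => t.2 (Subtype.ext h0))).choose_spec.1]
        exact t.1.2⟩
      left_inv := fun u => by
        apply Subtype.ext
        apply Units.ext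
        exact (h.exists_unit (a := ((u : Rˣ) : R)) u.2 (u : Rˣ).ne_zero).choose_spec.1
      right_inv := fun t => by
        apply Subtype.ext
        apply Subtype.ext
        exact (h.exists_unit t.1.2 (fun h0 => t.2 (Subtype.ext h0))).choose_spec.1 }
  have hcard : Nat.card K = Nat.card T - 1 := by
    rw [Nat.card_congr e]
    haveI : Fintype T := Fintype.ofFinite T
    rw [Nat.card_eq_fintype_card, Nat.card_eq_fintype_card, Fintype.card_subtype_compl]
    simp
  obtain ⟨u, hu, -⟩ := h.exists_unit ha ha0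
  have huK : u ∈ K := by change (u:R) ∈ T; rw [hu]; exact ha
  have h3 : (⟨u, huK⟩ : K) ^ Nat.card K = 1 := pow_card_eq_one'
  rw [hcard] at h3
  have h4 := congrArg (fun x : K => ((x : Rˣ) : R)) h3
  simp only [SubgroupClass.coe_pow, Units.val_pow_eq_pow_val, hu, OneMemClass.coe_one, Units.val_one] at h4
  exact h4

theorem card_eq_two_pow [Finite T] (h2 : (2:R) = 0) : ∃ n : ℕ, Nat.card T = 2 ^ n := by
  haveI : Fact (Nat.Prime 2) := ⟨Nat.prime_two⟩
  have hp : IsPGroup 2 (Multiplicative T) := by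
    intro x
    refine ⟨1, ?_⟩
    have : Multiplicative.toAdd (x ^ (2 ^ 1)) = 0 := by
      rw [toAdd_pow]
      apply Subtype.ext
      change ((2 ^ 1 : ℕ) • (Multiplicative.toAdd x) : T).1 = 0
      rw [pow_one, two_nsmul]
      exact add_self h2 _
    exact this
  obtain ⟨n, hn⟩ := hp.exists_card_eq
  exact ⟨n, hn⟩

theorem card_lt {B : AddSubgroup R} [Finite T] (hB : B ≤ T) (hne : B ≠ T) : Nat.card B < Nat.card T := by
  haveI := finite_of_le hB
  refine lt_of_le_of_ne (Nat.card_le_card_of_injective _ (AddSubgroup.inclusion_injective hB)) ?_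
  intro he
  apply hne
  have := Nat.bijective_iff_injective_and_card (AddSubgroup.inclusion hB) |>.mpr
    ⟨AddSubgroup.inclusion_injective hB, he⟩
  apply le_antisymm hB
  intro x hx
  obtain ⟨y, hy⟩ := this.2 ⟨x, hx⟩
  have := congrArg Subtype.val hy
  change (y : R) = x at this
  rw [← this]; exact y.2

theorem U_pow (a : T) (ha : a ≠ 0) (k : ℕ) (t : T) :
    (((h.U a ha ^ k) t : T) : R) = (a:R) ^ k * t * (a:R) ^ k := by
  induction k generalizing t with
  | zero => simp
  | succ k ih =>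
    rw [pow_succ, Equiv.Perm.mul_apply, ih, U_coe, pow_succ]
    have : (a:R) ^ k * a = a * (a:R) ^ k := (pow_mul_comm' (a:R) k)
    calc (a:R) ^ k * (a * t * a) * a ^ k = (a:R) ^ k * a * t * (a * a ^ k) := by noncomm_ring
      _ = _ := by rw [← this]

section min

variable [Finite T] (h2 : (2:R) = 0)
  (hmin : ∀ B : AddSubgroup R, B ≤ T → B ≠ T → JT B → Com B) (hnc : ¬ Com T)

include h h2 hmin hnc

theorem exists_pow_lt {n : ℕ} (hn : Nat.card T = 2 ^ n) {a : R} (ha : a ∈ T) (ha0 : a ≠ 0) :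
    ∃ m : ℕ, 0 < m ∧ m < n ∧ a ^ (2 ^ m - 1) = 1 := by
  have key : ∀ B : AddSubgroup R, B ≤ T → JT B → Com B → a ∈ B → ∃ m : ℕ, 0 < m ∧ m < n ∧ a ^ (2 ^ m - 1) = 1 := by
    intro B hB hBJ hBc haB
    have hBne : B ≠ T := fun h0 => hnc (h0 ▸ hBc)
    haveI := finite_of_le hB
    obtain ⟨m, hm⟩ := card_eq_two_pow (T := B) h2
    have hlt := card_lt hB hBne
    rw [hm, hn] at hlt
    have hmn : m < n := (Nat.pow_lt_pow_iff_right (by omega)).mp hlt
    refine ⟨m, ?_, hmn, ?_⟩
    · rcases Nat.eq_zero_or_pos m with h0 | h0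
      · rw [h0, pow_zero] at hm
        exfalso
        have := (Nat.card_eq_one_iff_unique.mp hm).1
        have h3 : (⟨1, hBJ.one⟩ : B) = 0 := Subsingleton.elim _ _
        exact one_ne_zero (congrArg Subtype.val h3)
      · exact h0
    · rw [← hm]
      exact hBJ.pow_card_sub_one h2 hBc haB ha0
  by_cases hz : cT T {a} = T
  · -- a central
    refine key (cT T T) (cT_le T T) (h.cT_JT _) (fun x hx y hy => hx.2 y hy.1) ⟨ha, fun x hx => ?_⟩
    have : x ∈ cT T {a} := by rw [hz]; exact hx
    exact (this.2 a rfl).symm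
  · exact key _ (cT_le T {a}) (h.cT_JT _) (hmin _ (cT_le T {a}) hz (h.cT_JT _)) ⟨ha, fun x hx => by
      rw [Set.mem_singleton_iff.mp hx]⟩

/-- commuting `U`s -/
theorem comm_of_U {a b : T} (ha : a ≠ 0) (hb : b ≠ 0) (ha1 : a ≠ h.one') (ha3 : (a:R) ^ 3 = 1)
    (hU : h.U a ha * h.U b hb = h.U b hb * h.U a ha) : (a:R) * b = b * a := by
  by_contra hne
  have ha' : (a:R) ≠ 0 := fun h0 => ha (Subtype.ext h0)
  have hb' : (b:R) ≠ 0 := fun h0 => hb (Subtype.ext h0)
  obtain ⟨u, hu, -⟩ := h.exists_unit a.2 ha'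
  obtain ⟨v, hv, -⟩ := h.exists_unit b.2 hb'
  have hall : ∀ t : T, (a:R) * b * t * (b * a) = b * a * t * (a * b) := by
    intro t
    have := congrArg (fun e : Equiv.Perm T => ((e t : T) : R)) hU
    simp only [Equiv.Perm.mul_apply, U_coe] at this
    calc (a:R) * b * t * (b * a) = a * (b * t * b) * a := by noncomm_ring
      _ = b * (a * t * a) * b := this
      _ = _ := by noncomm_ring
  rw [← hu, ← hv] at hall
  set g : Rˣ := (v * u)⁻¹ * (u * v) with hg
  have hPQ : (u * v) * (v * u) = (v * u) * (u * v) := by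
    apply Units.ext
    have := hall h.one'
    rw [one'_coe] at this
    push_cast
    simpa using this
  have hg' : g = (u * v) * (v * u)⁻¹ := by
    rw [hg, inv_mul_eq_iff_eq_mul, ← mul_assoc, ← hPQ]; group
  -- g commutes with T
  have hgt : ∀ t ∈ T, (g:R) * t = t * g := by
    intro t ht
    have h1 := hall ⟨t, ht⟩
    have h2' : (((v * u)⁻¹ : Rˣ) : R) * (((u:R) * v) * t * (v * u)) * (((v * u)⁻¹ : Rˣ) : R) =
      (((v * u)⁻¹ : Rˣ) : R) * ((v:R) * u * t * (u * v)) * (((v * u)⁻¹ : Rˣ) : R) := by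
      congr 1; congr 1
    have e1 : (((v * u)⁻¹ : Rˣ) : R) * (((u:R) * v) * t * (v * u)) * (((v * u)⁻¹ : Rˣ) : R) = g * t := by
      rw [hg]
      calc (((v * u)⁻¹ : Rˣ) : R) * (((u:R) * v) * t * (v * u)) * (((v * u)⁻¹ : Rˣ) : R)
          = (((v * u)⁻¹ : Rˣ) : R) * ((u * v : Rˣ) : R) * t * (((v * u : Rˣ) : R) * (((v * u)⁻¹ : Rˣ) : R)) := by
            push_cast; noncomm_ring
        _ = _ := by rw [Units.mul_inv, mul_one]; push_cast; rfl
    have e2 : (((v * u)⁻¹ : Rˣ) : R) * ((v:R) * u * t * (u * v)) * (((v * u)⁻¹ : Rˣ) : R) = t * g := by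
      rw [hg']
      calc (((v * u)⁻¹ : Rˣ) : R) * ((v:R) * u * t * (u * v)) * (((v * u)⁻¹ : Rˣ) : R)
          = ((((v * u)⁻¹ : Rˣ) : R) * ((v * u : Rˣ) : R)) * t * (((u * v : Rˣ) : R) * (((v * u)⁻¹ : Rˣ) : R)) := by
            push_cast; noncomm_ring
        _ = _ := by rw [Units.inv_mul, one_mul]; push_cast; rfl
    rw [← e1, h2', e2]
  have hab : (u:R) * v = v * u * g := by
    have : u * v = v * u * g := by rw [hg]; group
    exact_mod_cast congrArg (fun x : Rˣ => (x:R)) this
  have hga : (g:R) * u = u * g := hgt _ (by rw [hu]; exact a.2)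
  have hgb : (g:R) * v = v * g := hgt _ (by rw [hv]; exact b.2)
  -- a² + a + 1 = 0
  have ha2 : (u:R) * u + u + 1 = 0 := by
    have hne1 : (a:R) + 1 ≠ 0 := fun h0 => ha1 (Subtype.ext (eq_of_add_eq_zero h2 h0))
    by_contra hcon
    apply h.mul_ne_zero (T.add_mem a.2 h.one) hne1 hcon
    rw [← hu]
    have : ((u:R) + 1) * (u * u + u + 1) = (u:R) ^ 3 + (u * u + u * u) + (u + u) + 1 := by noncomm_ring
    rw [this, add_self h2, add_self h2, hu, ha3, add_zero, add_zero, add_self h2]
  have hbr : (v:R) * u * ((1:R) + g) ≠ 0 := by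
    have e1 : (v:R) * u * ((1:R) + g) = v * u + u * v := by rw [mul_add, mul_one, ← hab]
    rw [e1, hu, hv]
    intro h0
    exact hne (eq_of_add_eq_zero h2 h0).symm
  have hbrT : (v:R) * u * ((1:R) + g) ∈ T := by
    have e1 : (v:R) * u * ((1:R) + g) = v * u + u * v := by rw [mul_add, mul_one, ← hab]
    rw [e1, hu, hv]
    exact h.bracket_mem h2 b.2 a.2
  have hcan : ∀ x : R, ((1:R) + g) * x = 0 → x = 0 := by
    intro x hx
    by_contra hx0
    apply h.mul_ne_zero hbrT hbr hx0
    rw [mul_assoc, hx, mul_zero]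
  have h3 : ((u:R) * g) * (u * g) + u * g + 1 = 0 := by
    have e1 : (v:R) * (((u:R) * g) * (u * g) + u * g + 1) = (u * u + u + 1) * v := by
      calc (v:R) * (((u:R) * g) * (u * g) + u * g + 1) = (v * u * g) * (u * g) + v * u * g + v := by
            noncomm_ring
        _ = u * v * (u * g) + u * v + v := by rw [← hab]
        _ = u * (v * u * g) + u * v + v := by noncomm_ring
        _ = u * (u * v) + u * v + v := by rw [← hab]
        _ = _ := by noncomm_ring
    rw [ha2, zero_mul] at e1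
    have := congrArg (fun x => ((v⁻¹ : Rˣ) : R) * x) e1
    simpa using this
  have h4 : ((1:R) + g) * ((u:R) * g + 1 + g) = 0 := by
    have e1 : ((1:R) + g) * ((u:R) * g + 1 + g) = (u * g + 1 + u * g * g + g * g) + (g + g) := by
      have : (g:R) * (u * g) = u * g * g := by rw [← mul_assoc, hga]
      rw [add_mul, one_mul, mul_add, mul_add, this]
      noncomm_ring
    have e2 : ((u:R) * g) * (u * g) = u * u * g * g := by
      calc ((u:R) * g) * (u * g) = u * (g * u) * g := by noncomm_ring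
        _ = _ := by rw [hga]; noncomm_ring
    have e3 : ((u:R) * u + u + 1) * (g * g) = 0 := by rw [ha2, zero_mul]
    have e4 : ((u:R) * g + 1 + u * g * g + g * g) =
        (((u:R) * g) * (u * g) + u * g + 1) + ((u:R) * u + u + 1) * (g * g) +
          (-(u * u * g * g + u * u * g * g)) := by
      rw [e2]; noncomm_ring
    rw [e1, add_self h2, add_zero, e4, h3, e3, add_zero, zero_add, add_self h2, neg_zero]
  have h5 := hcan _ h4
  have h6 : (u:R) * g = 1 + g := by
    apply eq_of_add_eq_zero h2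
    rw [← add_assoc]; exact h5
  -- a g commutes with b
  have h7 : (u:R) * v * g = v * u * g := by
    calc (u:R) * v * g = u * (v * g) := by rw [mul_assoc]
      _ = (u * g) * v := by rw [← hgb, mul_assoc]
      _ = (1 + g) * v := by rw [h6]
      _ = v * (1 + g) := by rw [add_mul, mul_add, hgb, one_mul, mul_one]
      _ = v * (u * g) := by rw [h6]
      _ = _ := by rw [mul_assoc]
  apply hne
  rw [← hu, ← hv]
  have := congrArg (fun x => x * ((g⁻¹ : Rˣ) : R)) h7
  simpa [mul_assoc] using this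

omit h2 hmin hnc in
/-- commuting cube roots of unity -/
theorem cube_roots {a b : R} (ha : a ∈ T) (hb : b ∈ T) (hab : a * b = b * a) (ha3 : a ^ 3 = 1)
    (hb3 : b ^ 3 = 1) (ha1 : a ≠ 1) (hb1 : b ≠ 1) (hba : b ≠ a) : b = a ^ 2 := by
  have ha2 : a * a + a + 1 = 0 := by
    by_contra hcon
    apply h.mul_ne_zero (T.sub_mem ha h.one) (sub_ne_zero.mpr ha1) hcon
    have : (a - 1) * (a * a + a + 1) = a ^ 3 - 1 := by noncomm_ring
    rw [this, ha3, sub_self]
  have hb2 : b * b + b + 1 = 0 := by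
    by_contra hcon
    apply h.mul_ne_zero (T.sub_mem hb h.one) (sub_ne_zero.mpr hb1) hcon
    have : (b - 1) * (b * b + b + 1) = b ^ 3 - 1 := by noncomm_ring
    rw [this, hb3, sub_self]
  have h3 : (b - a) * (b + a + 1) = 0 := by
    have : (b - a) * (b + a + 1) = (b * b + b + 1) - (a * a + a + 1) + (b * a - a * b) := by
      noncomm_ring
    rw [this, ha2, hb2, hab]; simp
  have h4 : b + a + 1 = 0 := by
    by_contra hcon
    exact h.mul_ne_zero (T.sub_mem hb ha) (sub_ne_zero.mpr hba) hcon h3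
  rw [pow_two]
  have e1 : b = -a - 1 := by
    rw [sub_eq_add_neg, eq_comm, ← sub_eq_zero]
    have : -a + -1 - b = -(b + a + 1) := by abel
    rw [this, h4, neg_zero]
  have e2 : a * a = -a - 1 := by
    rw [sub_eq_add_neg, ← sub_eq_zero]
    have : a * a - (-a + -1) = a * a + a + 1 := by abel
    rw [this, ha2]
  rw [e1, e2]

end min

end JT

end Cfsg.Agent.H84.JDiv
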