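import Cfsg.Agent.H84.JDiv4

/-! Commutativity of finite special Jordan division rings of characteristic two: main theorem. -/

set_option autoImplicit false
set_option linter.unusedSectionVars false
set_option linter.style.haveILetI false

namespace Cfsg.Agent.H84.JDiv

variable {R : Type*} [Ring R] [Nontrivial R]

namespace JT

variable {T : AddSubgroup R} (h : JT T)

section min

variable [Finite T] (h2 : (2:R) = 0)
  (hmin : ∀ B : AddSubgroup R, B ≤ T → B ≠ T → JT B → Com B) (hnc : ¬ Com T)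

include h h2 hmin hnc

theorem mem_orbit_iff (t : T) : t ∈ MulAction.orbit h.Gam h.one' ↔ t ≠ 0 := by
  constructor
  · rintro ⟨g, rfl⟩
    exact h.Gam_ne g.2 h.one'_ne
  · intro ht
    obtain ⟨c, hc, hcc, -⟩ := h.exists_sqrt h2 t.2
    have hc0 : (⟨c, hc⟩ : T) ≠ 0 := by
      intro h0
      have : c = 0 := congrArg Subtype.val h0
      apply ht
      apply Subtype.ext
      rw [← hcc, this, mul_zero]
      rfl
    refine ⟨⟨h.U ⟨c, hc⟩ hc0, h.U_mem _ _⟩, ?_⟩
    apply Subtype.ext
    change c * 1 * c = t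
    rw [mul_one, hcc]

theorem card_orbit : Nat.card (MulAction.orbit h.Gam h.one') = Nat.card T - 1 := by
  classical
  haveI : Fintype T := Fintype.ofFinite T
  have : (MulAction.orbit h.Gam h.one') = {t : T | t ≠ 0} := by
    ext t
    exact h.mem_orbit_iff h2 hmin hnc t
  rw [this]
  change Nat.card {t : T // t ≠ 0} = _
  rw [Nat.card_eq_fintype_card, Nat.card_eq_fintype_card, Fintype.card_subtype_compl]
  simp

end min

end JT

theorem pow_dvd_orbit' {G X : Type*} [Group G] [Finite G] [MulAction G X] (x : X) {r : ℕ} [hr : Fact r.Prime]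
    (P : Sylow r G) (a : ℕ) (hra : r ^ a ∣ (MulAction.stabilizer G x).index) :
    r ^ a ∣ Nat.card (MulAction.orbit (P : Subgroup G) x) := by
  have e1 := (MulAction.stabilizer G x).card_mul_index
  have e2 := (MulAction.stabilizer (P : Subgroup G) x).card_mul_index
  have hQp : IsPGroup r (MulAction.stabilizer (P : Subgroup G) x) := P.2.to_subgroup _
  obtain ⟨b, hb⟩ := hQp.exists_card_eq
  have hdvd : Nat.card (MulAction.stabilizer (P : Subgroup G) x) ∣ Nat.card (MulAction.stabilizer G x) := by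
    have hle : (MulAction.stabilizer (P : Subgroup G) x).map (P : Subgroup G).subtype ≤
        MulAction.stabilizer G x := by
      rintro _ ⟨u, hu, rfl⟩
      exact hu
    have h3 := Subgroup.card_dvd_of_le hle
    rwa [Subgroup.card_map_of_injective (P : Subgroup G).subtype_injective] at h3
  rw [MulAction.index_stabilizer] at e2
  rw [Nat.card_coe_set_eq]
  rw [hb] at hdvd e2
  have h4 : r ^ (b + a) ∣ Nat.card G := by
    rw [← e1, pow_add]
    exact Nat.mul_dvd_mul hdvd hra
  have h5 := P.pow_dvd_card_of_pow_dvd_card h4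
  rw [← e2, pow_add] at h5
  exact Nat.dvd_of_mul_dvd_mul_left (pow_pos hr.out.pos _) h5

namespace JT

variable {T : AddSubgroup R} (h : JT T)

section min

variable [Finite T] (h2 : (2:R) = 0)
  (hmin : ∀ B : AddSubgroup R, B ≤ T → B ≠ T → JT B → Com B) (hnc : ¬ Com T)

include h h2 hmin hnc

theorem pow_dvd_orbit (r : ℕ) [hr : Fact r.Prime] (P : Sylow r h.Gam) (a : ℕ) (hra : r ^ a ∣ Nat.card T - 1) :
    r ^ a ∣ Nat.card (MulAction.orbit (P : Subgroup h.Gam) h.one') := by
  apply pow_dvd_orbit'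
  rw [MulAction.index_stabilizer, ← Nat.card_coe_set_eq, h.card_orbit h2 hmin hnc]
  exact hra

/-- the elements of the orbit -/
theorem orbit_spec {r : ℕ} [Fact r.Prime] {P : Sylow r h.Gam} (hP : ∀ u ∈ P, h.phi u ∈ P)
    (u : h.Gam) (hu : u ∈ P) :
    (⟨h.U ((u : Equiv.Perm T) h.one') (h.Gam_ne u.2 h.one'_ne), h.U_mem _ _⟩ : h.Gam) ∈ P ∧
    ∃ k : ℕ, (((u : Equiv.Perm T) h.one' : T) : R) ^ (r ^ k) = 1 := by
  have h1 : (⟨h.U ((u : Equiv.Perm T) h.one') (h.Gam_ne u.2 h.one'_ne), h.U_mem _ _⟩ : h.Gam) ∈ P := by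
    rw [h.U_eq]
    exact (P : Subgroup h.Gam).mul_mem hu ((P : Subgroup h.Gam).inv_mem (hP u hu))
  refine ⟨h1, ?_⟩
  obtain ⟨k, hk⟩ := P.2 ⟨_, h1⟩
  refine ⟨k, ?_⟩
  have h3 := congrArg (fun x : P => (((x : h.Gam) : Equiv.Perm T) h.one' : T)) hk
  have h4 := congrArg Subtype.val h3
  have h5 : ((((h.U ((u : Equiv.Perm T) h.one') (h.Gam_ne u.2 h.one'_ne)) ^ (r ^ k)) h.one' : T) : R) = 1 := h4
  rw [h.U_pow, one'_coe, mul_one] at h5
  exact h.sq_eq_one h2 (h.pow_mem (Subtype.mem _) _) h5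

end min

end JT

/-- Finite special Jordan division rings of characteristic two are commutative. -/
theorem JT.com (h2 : (2:R) = 0) : ∀ (T : AddSubgroup R) [Finite T] (h : JT T), Com T := by
  intro T
  induction hcard : Nat.card T using Nat.strong_induction_on generalizing T with
  | _ N ih =>
  intro hfin h
  by_contra hnc
  have hmin : ∀ B : AddSubgroup R, B ≤ T → B ≠ T → JT B → Com B := by
    intro B hB hne hJ
    haveI := JT.finite_of_le hB
    exact ih _ (by rw [← hcard]; exact JT.card_lt hB hne) B rfl hJ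
  obtain ⟨n, hn⟩ := JT.card_eq_two_pow (T := T) h2
  have key := fun {a : R} => h.exists_pow_lt h2 hmin hnc hn (a := a)
  have hn1 : 1 < n := by
    obtain ⟨m, h0, hlt, -⟩ := key h.one one_ne_zero
    omega
  by_cases hn6 : n = 6
  · -- n = 6, r = 3
    haveI : Fact (Nat.Prime 3) := ⟨Nat.prime_three⟩
    obtain ⟨P, hP⟩ := h.exists_sylow h2 hmin hnc 3
    have hdvd := h.pow_dvd_orbit h2 hmin hnc 3 P 2 (by rw [hn, hn6]; norm_num)
    -- all elements of the orbit have cube 1
    have hcube : ∀ b ∈ MulAction.orbit (P : Subgroup h.Gam) h.one', (b:R) ^ 3 = 1 := by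
      rintro _ ⟨u, rfl⟩
      obtain ⟨-, k, hk⟩ := h.orbit_spec h2 hmin hnc hP (u : h.Gam) u.2
      have hne : (((u : h.Gam) : Equiv.Perm T) h.one' : T) ≠ 0 := h.Gam_ne (u : h.Gam).2 h.one'_ne
      obtain ⟨m, hm0, hm6, hm⟩ := key (Subtype.mem (((u : h.Gam) : Equiv.Perm T) h.one' : T))
        (fun h0 => hne (Subtype.ext h0))
      set b : R := ((((u : h.Gam) : Equiv.Perm T) h.one' : T) : R)
      change b ^ 3 = 1
      have h9 : orderOf b ∣ 3 ^ k := orderOf_dvd_of_pow_eq_one hk
      have h10 : orderOf b ∣ 2 ^ m - 1 := orderOf_dvd_of_pow_eq_one hm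
      rw [Nat.dvd_prime_pow Nat.prime_three] at h9
      obtain ⟨j, -, hj⟩ := h9
      rw [hj] at h10
      have hj1 : j ≤ 1 := by
        by_contra hcon
        have h11 : 3 ^ 2 ∣ 2 ^ m - 1 := (pow_dvd_pow 3 (by omega)).trans h10
        rw [hn6] at hm6
        interval_cases m <;> revert h11 <;> decide
      have h12 : orderOf b ∣ 3 := by
        rw [hj]
        calc 3 ^ j ∣ 3 ^ 1 := pow_dvd_pow 3 hj1
          _ = 3 := by norm_num
      exact orderOf_dvd_iff_pow_eq_one.mp h12
    -- the orbit has at least 9 elements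
    have hfinO : Finite (MulAction.orbit (P : Subgroup h.Gam) h.one') := inferInstance
    have hbig : ∀ s : Finset T, s.card < 9 → ∃ b ∈ MulAction.orbit (P : Subgroup h.Gam) h.one', b ∉ s := by
      intro s hs
      by_contra hcon
      push Not at hcon
      have h1 : Nat.card (MulAction.orbit (P : Subgroup h.Gam) h.one') ≤ s.card := by
        rw [Nat.card_coe_set_eq, ← Set.ncard_coe_finset]
        exact Set.ncard_le_ncard hcon s.finite_toSet
      have h3 : 0 < Nat.card (MulAction.orbit (P : Subgroup h.Gam) h.one') := by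
        haveI : Nonempty (MulAction.orbit (P : Subgroup h.Gam) h.one') := ⟨⟨h.one', MulAction.mem_orbit_self _⟩⟩
        exact Nat.card_pos
      have h4 := Nat.le_of_dvd h3 hdvd
      omega
    have hcontra : ∀ a ∈ MulAction.orbit (P : Subgroup h.Gam) h.one', a ≠ h.one' →
        (∀ b ∈ MulAction.orbit (P : Subgroup h.Gam) h.one', (a:R) * b = b * a) → False := by
      intro a ha ha1 hab
      classical
      obtain ⟨b, hb, hbs⟩ := hbig {h.one', a, h.core a h.one'} (lt_of_le_of_lt Finset.card_le_three (by omega))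
      simp only [Finset.mem_insert, Finset.mem_singleton, not_or] at hbs
      have := h.cube_roots a.2 b.2 (hab b hb) (hcube a ha) (hcube b hb)
        (fun h0 => ha1 (Subtype.ext h0)) (fun h0 => hbs.1 (Subtype.ext h0)) (fun h0 => hbs.2.1 (Subtype.ext h0))
      apply hbs.2.2
      apply Subtype.ext
      rw [this, JT.core_coe, JT.one'_coe, Ring.inverse_one, mul_one, pow_two]
    -- P nontrivial
    haveI hPnt : Nontrivial P := by
      by_contra hcon
      rw [not_nontrivial_iff_subsingleton] at hcon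
      obtain ⟨b, hb, hbs⟩ := hbig {h.one'} (by simp)
      obtain ⟨u, rfl⟩ := hb
      apply hbs
      have : u = 1 := Subsingleton.elim _ _
      rw [this, Finset.mem_singleton]
      exact one_smul _ _
    haveI : Finite P := inferInstance
    obtain ⟨z, hz1⟩ := (Subgroup.nontrivial_iff_exists_ne_one (Subgroup.center P)).mp (P.2.center_nontrivial)
    obtain ⟨hzc, hz1⟩ := hz1
    rw [Subgroup.mem_center_iff] at hzc
    by_cases ha : ((z : h.Gam) : Equiv.Perm T) h.one' = h.one'
    · -- z fixes 1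
      have hzne : ((z : h.Gam) : Equiv.Perm T) ≠ 1 := fun h0 => hz1 (Subtype.ext (Subtype.ext h0))
      have hFne : h.fixT _ (z : h.Gam).2 ≠ T := fun hf => hzne (h.eq_one_of_fixT _ hf)
      have hFc := hmin _ (h.fixT_le _ (z : h.Gam).2) hFne (h.fixT_JT (z : h.Gam).2 ha)
      have hsub : ∀ b ∈ MulAction.orbit (P : Subgroup h.Gam) h.one', (b:R) ∈ h.fixT _ (z : h.Gam).2 := by
        rintro _ ⟨u, rfl⟩
        refine ⟨Subtype.mem _, ?_⟩
        have h3 := hzc u
        have h4 := congrArg (fun x : P => (((x : h.Gam) : Equiv.Perm T) h.one')) h3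
        have h5 : ((u : h.Gam) : Equiv.Perm T) (((z : h.Gam) : Equiv.Perm T) h.one') =
          ((z : h.Gam) : Equiv.Perm T) (((u : h.Gam) : Equiv.Perm T) h.one') := h4
        rw [ha] at h5
        exact h5.symm
      obtain ⟨a, ha, has⟩ := hbig {h.one'} (by simp)
      rw [Finset.mem_singleton] at has
      exact hcontra a ha has (fun b hb => hFc _ (hsub a ha) _ (hsub b hb))
    · refine hcontra _ ⟨z, rfl⟩ ha ?_
      rintro _ ⟨u, rfl⟩
      have hza := h.orbit_spec h2 hmin hnc hP (z : h.Gam) z.2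
      have hua := h.orbit_spec h2 hmin hnc hP (u : h.Gam) u.2
      refine h.comm_of_U h2 hmin hnc (h.Gam_ne (z : h.Gam).2 h.one'_ne) (h.Gam_ne (u : h.Gam).2 h.one'_ne)
        ha (hcube _ ⟨z, rfl⟩) ?_
      -- U_a commutes with everything in P
      have hcz : ∀ w ∈ P, (z : h.Gam) * w = w * (z : h.Gam) := fun w hw => by
        have := hzc ⟨w, hw⟩
        exact (congrArg Subtype.val this).symm
      have hcz' : ∀ w ∈ P, h.phi (z : h.Gam) * w = w * h.phi (z : h.Gam) := fun w hw => by
        have h3 := hcz _ (hP w hw)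
        have h4 := congrArg h.phi h3
        rwa [map_mul, map_mul, h.phi_phi] at h4
      have h6 := hua.1
      have h7 := h.U_eq (z : h.Gam)
      set Uu : h.Gam := ⟨h.U (((u : h.Gam) : Equiv.Perm T) h.one') (h.Gam_ne (u : h.Gam).2 h.one'_ne), h.U_mem _ _⟩
      have h8 : (z : h.Gam) * (h.phi (z : h.Gam))⁻¹ * Uu = Uu * ((z : h.Gam) * (h.phi (z : h.Gam))⁻¹) := by
        have e1 : (h.phi (z : h.Gam))⁻¹ * Uu = Uu * (h.phi (z : h.Gam))⁻¹ :=
          (Commute.inv_left (hcz' _ h6)).eq
        rw [mul_assoc, e1, ← mul_assoc, hcz _ h6, mul_assoc]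
      rw [← h7] at h8
      exact congrArg Subtype.val h8
  · -- primitive prime
    obtain ⟨r, hr, hrd, hrp⟩ := Cfsg.Agent.S2904.result 2 n (by omega) hn1 (fun h0 => hn6 h0.2) (by
      rintro ⟨-, m, hm⟩
      have h3 : Even (2 ^ m) ∨ m = 0 := by
        rcases Nat.eq_zero_or_pos m with h0 | h0
        · exact Or.inr h0
        · exact Or.inl ((Nat.even_pow' (by omega)).mpr even_two)
      rcases h3 with h3 | h3
      · rw [← hm] at h3; revert h3; decide
      · rw [h3] at hm; omega)
    haveI : Fact r.Prime := ⟨hr⟩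
    obtain ⟨P, hP⟩ := h.exists_sylow h2 hmin hnc r
    have hdvd := h.pow_dvd_orbit h2 hmin hnc r P 1 (by rw [hn, pow_one]; exact hrd)
    have hall : ∀ b ∈ MulAction.orbit (P : Subgroup h.Gam) h.one', b = h.one' := by
      rintro _ ⟨u, rfl⟩
      obtain ⟨-, k, hk⟩ := h.orbit_spec h2 hmin hnc hP (u : h.Gam) u.2
      have hne : (((u : h.Gam) : Equiv.Perm T) h.one' : T) ≠ 0 := h.Gam_ne (u : h.Gam).2 h.one'_ne
      obtain ⟨m, hm0, hmn, hm⟩ := key (Subtype.mem (((u : h.Gam) : Equiv.Perm T) h.one' : T))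
        (fun h0 => hne (Subtype.ext h0))
      apply Subtype.ext
      set b : R := ((((u : h.Gam) : Equiv.Perm T) h.one' : T) : R)
      change b = 1
      have hco : Nat.Coprime (r ^ k) (2 ^ m - 1) :=
        Nat.Coprime.pow_left k ((Nat.Prime.coprime_iff_not_dvd hr).mpr (hrp m hm0 hmn))
      have h9 : orderOf b ∣ r ^ k := orderOf_dvd_of_pow_eq_one hk
      have h10 : orderOf b ∣ 2 ^ m - 1 := orderOf_dvd_of_pow_eq_one hm
      have h11 : orderOf b ∣ 1 := by
        rw [← hco.gcd_eq_one]; exact Nat.dvd_gcd h9 h10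
      rw [Nat.dvd_one] at h11
      exact orderOf_eq_one_iff.mp h11
    have h3 : Nat.card (MulAction.orbit (P : Subgroup h.Gam) h.one') = 1 := by
      rw [Nat.card_eq_one_iff_unique]
      refine ⟨⟨fun a b => Subtype.ext ((hall _ a.2).trans (hall _ b.2).symm)⟩, ⟨⟨h.one', MulAction.mem_orbit_self _⟩⟩⟩
    rw [h3, pow_one, Nat.dvd_one] at hdvd
    exact hr.one_lt.ne' hdvd

end Cfsg.Agent.H84.JDiv
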