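import Cfsg.Agent.H84.JDiv5
import Cfsg.Agent.H84.RDat
import Cfsg.Agent.ClassBase.RelHom

/-! Recognition of `SL₂(F)` from a finite special Jordan division ring in characteristic two. -/

set_option autoImplicit false
set_option linter.unusedSectionVars false
set_option linter.style.haveILetI false

namespace Cfsg.Agent.H84.JDiv

open Cfsg Cfsg.Agent.H84.RD

/-- abstract comparison -/
theorem quot_equiv_of_map {H K N : Type*} [Group H] [Group K] [Group N] (ρ : H →* N) (Φ : K →* N)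
    (hΦ : Function.Injective Φ) (X Y : Subgroup H) (X' Y' : Subgroup K) (hXY : X ⊔ Y = ⊤)
    (hXY' : X' ⊔ Y' = ⊤) (hX : X.map ρ = X'.map Φ) (hY : Y.map ρ = Y'.map Φ) :
    Nonempty (H ⧸ ρ.ker ≃* K) := by
  have hr : ρ.range = Φ.range := by
    rw [MonoidHom.range_eq_map, MonoidHom.range_eq_map, ← hXY, ← hXY', Subgroup.map_sup, Subgroup.map_sup, hX, hY]
  exact ⟨(QuotientGroup.quotientKerEquivRange ρ).trans ((MulEquiv.subgroupCongr hr).trans
    (MonoidHom.ofInjective hΦ).symm)⟩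

variable {A : Type*} [AddCommGroup A] [Finite A]

instance finite_end : Finite (AddMonoid.End A) :=
  Finite.of_injective (fun f : AddMonoid.End A => (f : A → A)) (fun _ _ h => AddMonoidHom.ext (congrFun h))

variable [Nontrivial A] {T : AddSubgroup (AddMonoid.End A)} (hT : JT T) (h2 : (2 : AddMonoid.End A) = 0)

instance nontrivial_end : Nontrivial (AddMonoid.End A) := by
  obtain ⟨x, hx⟩ := exists_ne (0 : A)
  refine ⟨⟨1, 0, fun h => hx ?_⟩⟩
  exact congrArg (fun f : AddMonoid.End A => f x) h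

/-- `T` as a subring -/
def sr : Subring (AddMonoid.End A) where
  carrier := T
  mul_mem' := fun {a b} ha hb => hT.mul_mem_of_commute h2 ha hb (JT.com h2 T hT a ha b hb)
  one_mem' := hT.one
  add_mem' := fun ha hb => T.add_mem ha hb
  zero_mem' := T.zero_mem
  neg_mem' := fun ha => T.neg_mem ha

theorem mem_sr {f : AddMonoid.End A} : f ∈ sr hT h2 ↔ f ∈ T := Iff.rfl

theorem sr_isField : IsField (sr hT h2) where
  exists_pair_ne := ⟨0, 1, fun h => zero_ne_one (congrArg Subtype.val h)⟩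
  mul_comm := fun a b => Subtype.ext (JT.com h2 T hT a a.2 b b.2)
  mul_inv_cancel := fun {a} ha => by
    obtain ⟨y, hy, h1, -⟩ := hT.inv a a.2 (fun h => ha (Subtype.ext h))
    exact ⟨⟨y, hy⟩, Subtype.ext h1⟩

noncomputable instance sr_field : Field (sr hT h2) := (sr_isField hT h2).toField

/-- action of matrices -/
def act (M : Matrix (Fin 2) (Fin 2) (sr hT h2)) (p : A × A) : A × A :=
  ((M 0 0 : AddMonoid.End A) p.1 + (M 0 1 : AddMonoid.End A) p.2,
    (M 1 0 : AddMonoid.End A) p.1 + (M 1 1 : AddMonoid.End A) p.2)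

theorem act_one (p : A × A) : act hT h2 1 p = p := by
  have e1 : (((1 : Matrix (Fin 2) (Fin 2) (sr hT h2)) 0 0 : sr hT h2) : AddMonoid.End A) = 1 := rfl
  have e2 : (((1 : Matrix (Fin 2) (Fin 2) (sr hT h2)) 0 1 : sr hT h2) : AddMonoid.End A) = 0 := rfl
  have e3 : (((1 : Matrix (Fin 2) (Fin 2) (sr hT h2)) 1 0 : sr hT h2) : AddMonoid.End A) = 0 := rfl
  have e4 : (((1 : Matrix (Fin 2) (Fin 2) (sr hT h2)) 1 1 : sr hT h2) : AddMonoid.End A) = 1 := rfl
  rw [act, e1, e2, e3, e4]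
  simp

theorem act_mul (M N : Matrix (Fin 2) (Fin 2) (sr hT h2)) (p : A × A) :
    act hT h2 (M * N) p = act hT h2 M (act hT h2 N p) := by
  have key : ∀ i j, (((M * N) i j : sr hT h2) : AddMonoid.End A) =
      (M i 0 : AddMonoid.End A) * (N 0 j : AddMonoid.End A) + (M i 1 : AddMonoid.End A) * (N 1 j : AddMonoid.End A) := by
    intro i j
    rw [Matrix.mul_apply, Fin.sum_univ_two]
    rfl
  rw [act, act, act, key, key, key, key]
  have hm : ∀ (f g : AddMonoid.End A) (x : A), (f * g) x = f (g x) := fun _ _ _ => rfl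
  have ha : ∀ (f g : AddMonoid.End A) (x : A), (f + g) x = f x + g x := fun _ _ _ => rfl
  simp only [hm, ha, map_add, Prod.mk.injEq]
  exact ⟨by abel, by abel⟩

theorem act_inj {M N : Matrix (Fin 2) (Fin 2) (sr hT h2)} (h : ∀ p, act hT h2 M p = act hT h2 N p) : M = N := by
  have h1 : ∀ x, act hT h2 M (x, 0) = act hT h2 N (x, 0) := fun x => h _
  have h3 : ∀ x, act hT h2 M (0, x) = act hT h2 N (0, x) := fun x => h _
  simp only [act, map_zero, add_zero, zero_add, Prod.mk.injEq] at h1 h3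
  refine Matrix.ext fun i j => Subtype.ext (AddMonoidHom.ext fun x => ?_)
  fin_cases i <;> fin_cases j
  · exact (h1 x).1
  · exact (h3 x).1
  · exact (h1 x).2
  · exact (h3 x).2

/-- `SL₂` acting on `A × A` -/
noncomputable def Phi : Matrix.SpecialLinearGroup (Fin 2) (sr hT h2) →* Equiv.Perm (A × A) where
  toFun M :=
    { toFun := act hT h2 (M : Matrix (Fin 2) (Fin 2) (sr hT h2))
      invFun := act hT h2 ((M⁻¹ : Matrix.SpecialLinearGroup (Fin 2) (sr hT h2)) : Matrix (Fin 2) (Fin 2) (sr hT h2))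
      left_inv := fun p => by
        rw [← act_mul, ← Matrix.SpecialLinearGroup.coe_mul, inv_mul_cancel, Matrix.SpecialLinearGroup.coe_one, act_one]
      right_inv := fun p => by
        rw [← act_mul, ← Matrix.SpecialLinearGroup.coe_mul, mul_inv_cancel, Matrix.SpecialLinearGroup.coe_one, act_one] }
  map_one' := Equiv.ext fun p => act_one hT h2 p
  map_mul' M N := Equiv.ext fun p => act_mul hT h2 _ _ p

theorem Phi_apply (M : Matrix.SpecialLinearGroup (Fin 2) (sr hT h2)) (p : A × A) :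
    Phi hT h2 M p = act hT h2 (M : Matrix (Fin 2) (Fin 2) (sr hT h2)) p := rfl

theorem Phi_injective : Function.Injective (Phi hT h2) := by
  intro M N h
  apply Subtype.ext
  apply act_inj
  intro p
  exact congrArg (fun e : Equiv.Perm (A × A) => e p) h

theorem Phi_uU (t : sr hT h2) (p : A × A) :
    Phi hT h2 (uU t) p = (p.1 + (t : AddMonoid.End A) p.2, p.2) := by
  have e1 : (((uU t : Matrix.SpecialLinearGroup (Fin 2) (sr hT h2)) : Matrix (Fin 2) (Fin 2) (sr hT h2)) 0 0 : AddMonoid.End A) = 1 := rfl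
  have e2 : (((uU t : Matrix.SpecialLinearGroup (Fin 2) (sr hT h2)) : Matrix (Fin 2) (Fin 2) (sr hT h2)) 0 1 : AddMonoid.End A) = t := rfl
  have e3 : (((uU t : Matrix.SpecialLinearGroup (Fin 2) (sr hT h2)) : Matrix (Fin 2) (Fin 2) (sr hT h2)) 1 0 : AddMonoid.End A) = 0 := rfl
  have e4 : (((uU t : Matrix.SpecialLinearGroup (Fin 2) (sr hT h2)) : Matrix (Fin 2) (Fin 2) (sr hT h2)) 1 1 : AddMonoid.End A) = 1 := rfl
  rw [Phi_apply, act, e1, e2, e3, e4]
  simp

theorem Phi_lL (t : sr hT h2) (p : A × A) :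
    Phi hT h2 (lL t) p = (p.1, (t : AddMonoid.End A) p.1 + p.2) := by
  have e1 : (((lL t : Matrix.SpecialLinearGroup (Fin 2) (sr hT h2)) : Matrix (Fin 2) (Fin 2) (sr hT h2)) 0 0 : AddMonoid.End A) = 1 := rfl
  have e2 : (((lL t : Matrix.SpecialLinearGroup (Fin 2) (sr hT h2)) : Matrix (Fin 2) (Fin 2) (sr hT h2)) 0 1 : AddMonoid.End A) = 0 := rfl
  have e3 : (((lL t : Matrix.SpecialLinearGroup (Fin 2) (sr hT h2)) : Matrix (Fin 2) (Fin 2) (sr hT h2)) 1 0 : AddMonoid.End A) = t := rfl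
  have e4 : (((lL t : Matrix.SpecialLinearGroup (Fin 2) (sr hT h2)) : Matrix (Fin 2) (Fin 2) (sr hT h2)) 1 1 : AddMonoid.End A) = 1 := rfl
  rw [Phi_apply, act, e1, e2, e3, e4]
  simp

include hT h2 in
/-- recognition -/
theorem sl2_of_JT {H Ω : Type*} [Group H] (e : A × A ≃ Ω) (ρ : H →* Equiv.Perm Ω) (X Y : Subgroup H)
    (hXY : X ⊔ Y = ⊤)
    (hX : ∀ x ∈ X, ∃ f ∈ T, ∀ a b, ρ x (e (a, b)) = e (a + f b, b))
    (hX' : ∀ f ∈ T, ∃ x ∈ X, ∀ a b, ρ x (e (a, b)) = e (a + f b, b))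
    (hY : ∀ y ∈ Y, ∃ f ∈ T, ∀ a b, ρ y (e (a, b)) = e (a, f a + b))
    (hY' : ∀ f ∈ T, ∃ y ∈ Y, ∀ a b, ρ y (e (a, b)) = e (a, f a + b)) :
    ∃ (F : Type) (_ : Field F) (_ : Fintype F), Fintype.card F = Nat.card T ∧
      Nonempty (H ⧸ ρ.ker ≃* Matrix.SpecialLinearGroup (Fin 2) F) := by
  set Ψ : Matrix.SpecialLinearGroup (Fin 2) (sr hT h2) →* Equiv.Perm Ω :=
    (e.permCongrHom.toMonoidHom).comp (Phi hT h2) with hΨ
  have hΨa : ∀ M p, Ψ M (e p) = e (Phi hT h2 M p) := by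
    intro M p
    change e ((Phi hT h2 M) (e.symm (e p))) = _
    rw [e.symm_apply_apply]
  have hΨi : Function.Injective Ψ := by
    rw [hΨ, MonoidHom.coe_comp]
    exact e.permCongrHom.injective.comp (Phi_injective hT h2)
  have hext : ∀ (f g : Equiv.Perm Ω), (∀ p, f (e p) = g (e p)) → f = g := by
    intro f g hfg
    apply Equiv.ext
    intro w
    obtain ⟨p, rfl⟩ := e.surjective w
    exact hfg p
  have hmX : X.map ρ = (upperUnipotentSL2 (sr hT h2)).map Ψ := by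
    ext g
    constructor
    · rintro ⟨x, hx, rfl⟩
      obtain ⟨f, hf, hxf⟩ := hX x hx
      refine ⟨uU ⟨f, hf⟩, mem_upper.2 ⟨_, rfl⟩, ?_⟩
      apply hext
      rintro ⟨a, b⟩
      rw [hΨa, Phi_uU]
      exact (hxf a b).symm
    · rintro ⟨M, hM, rfl⟩
      obtain ⟨t, rfl⟩ := mem_upper.1 hM
      obtain ⟨x, hx, hxf⟩ := hX' t t.2
      refine ⟨x, hx, ?_⟩
      apply hext
      rintro ⟨a, b⟩
      rw [hΨa, Phi_uU]
      exact hxf a b
  have hmY : Y.map ρ = (lowerUnipotentSL2 (sr hT h2)).map Ψ := by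
    ext g
    constructor
    · rintro ⟨x, hx, rfl⟩
      obtain ⟨f, hf, hxf⟩ := hY x hx
      refine ⟨lL ⟨f, hf⟩, mem_lower.2 ⟨_, rfl⟩, ?_⟩
      apply hext
      rintro ⟨a, b⟩
      rw [hΨa, Phi_lL]
      exact (hxf a b).symm
    · rintro ⟨M, hM, rfl⟩
      obtain ⟨t, rfl⟩ := mem_lower.1 hM
      obtain ⟨x, hx, hxf⟩ := hY' t t.2
      refine ⟨x, hx, ?_⟩
      apply hext
      rintro ⟨a, b⟩
      rw [hΨa, Phi_lL]
      exact hxf a b
  obtain ⟨φ⟩ := quot_equiv_of_map ρ Ψ hΨi X Y _ _ hXY sl2_gen hmX hmY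
  haveI : Finite (sr hT h2) := inferInstance
  haveI : Finite (Shrink.{0} (sr hT h2)) := Finite.of_equiv _ (equivShrink _)
  letI : Fintype (Shrink.{0} (sr hT h2)) := Fintype.ofFinite _
  refine ⟨Shrink.{0} (sr hT h2), inferInstance, inferInstance, ?_, ⟨φ.trans
    (ClassBase.slCongr (Shrink.ringEquiv.{0} (sr hT h2)).symm)⟩⟩
  rw [← Nat.card_eq_fintype_card, ← Nat.card_congr (equivShrink.{0} (sr hT h2))]
  rfl

end Cfsg.Agent.H84.JDiv
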