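import Cfsg.Agent.H84.TI5
import Cfsg.Agent.H84.JSL

/-! TI subgroups, part 6: `H / C_H(W) ≅ SL₂(q)`. -/

set_option autoImplicit false
set_option linter.unusedSectionVars false
set_option linter.style.haveILetI false

namespace Cfsg.Agent.H84.TI

open Cfsg Cfsg.Agent.RankOne Subgroup
open scoped commutatorElement

variable {G : Type*} [Group G] [Finite G]

theorem PP_conjBy (A B : Subgroup G) (n : G) : conjBy (PP A B) n = PP (conjBy A n) (conjBy B n) := by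
  ext x
  rw [mem_conjBy, mem_PP, mem_PP, mem_conjBy]
  constructor
  · rintro ⟨h1, h2⟩
    refine ⟨h1, fun v hv => ?_⟩
    rw [mem_conjBy] at hv
    have := h2 _ hv
    calc v * x = n * (n⁻¹ * v * n * (n⁻¹ * x * n)) * n⁻¹ := by group
      _ = n * (n⁻¹ * x * n * (n⁻¹ * v * n)) * n⁻¹ := by rw [this]
      _ = _ := by group
  · rintro ⟨h1, h2⟩
    refine ⟨h1, fun v hv => ?_⟩
    have := h2 _ (RankOne.conj_mem_conjBy n hv)
    calc v * (n⁻¹ * x * n) = n⁻¹ * (n * v * n⁻¹ * x) * n := by group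
      _ = n⁻¹ * (x * (n * v * n⁻¹)) * n := by rw [this]
      _ = _ := by group

namespace Pr

variable {V Q U QU : Subgroup G} (p : Pr V Q U QU)

include p

/-- the standard elements `a₀`, `b₀` -/
theorem exists_std : ∃ a₀ ∈ PP V Q, ∃ b₀ ∈ PP U QU, (∀ u ∈ U, ⁅b₀, ⁅a₀, u⁆⁆ = u) ∧ (∀ v ∈ V, ⁅a₀, ⁅b₀, v⁆⁆ = v) := by
  obtain ⟨v, hv, hv1⟩ := p.h.exists_ne
  obtain ⟨u, hu, hu1⟩ := p.h.out_ne_bot p.o
  obtain ⟨a, ha, hav⟩ := p.h.exists_comm_eq p.o hu hu1 hv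
  have hna := p.not_cent_of (a := a) hu (by rw [hav]; exact hv1)
  obtain ⟨b, hb, -, -, hba⟩ := p.exists_n ha hna
  refine ⟨a, ha, b, hb, hba, ?_⟩
  intro w hw
  obtain ⟨u', hu', rfl⟩ := p.h.out_surj p.o ha hna hw
  rw [hba u' hu']

theorem conj_eqs {a₀ b₀ : G} (ha₀ : a₀ ∈ PP V Q) (hb₀ : b₀ ∈ PP U QU) (h1 : ∀ u ∈ U, ⁅b₀, ⁅a₀, u⁆⁆ = u)
    (h2 : ∀ v ∈ V, ⁅a₀, ⁅b₀, v⁆⁆ = v) :
    (∀ u ∈ U, (a₀ * b₀ * a₀) * u * (a₀ * b₀ * a₀)⁻¹ = ⁅a₀, u⁆) ∧
    (∀ v ∈ V, (a₀ * b₀ * a₀) * v * (a₀ * b₀ * a₀)⁻¹ = ⁅b₀, v⁆) := by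
  have hUP : ∀ u ∈ U, u ∈ PP V Q := fun u hu => p.h.out_mem_PP p.o hu
  have hVP : ∀ v ∈ V, v ∈ PP U QU := fun v hv => p.h'.out_mem_PP p.o' hv
  have hUV := p.h.out_comm p.o
  constructor
  · intro u hu
    have hx : ⁅a₀, u⁆ ∈ V := p.h.comm_mem ha₀ (hUP u hu)
    have e1 : a₀ * u * a₀⁻¹ = ⁅a₀, u⁆ * u := by rw [commutatorElement_def]; group
    have e2 : b₀ * ⁅a₀, u⁆ * b₀⁻¹ = u * ⁅a₀, u⁆ := by
      have : b₀ * ⁅a₀, u⁆ * b₀⁻¹ = ⁅b₀, ⁅a₀, u⁆⁆ * ⁅a₀, u⁆ := by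
        rw [commutatorElement_def b₀]; group
      rw [this, h1 u hu]
    have e3 : b₀ * u * b₀⁻¹ = u := p.h'.PV_conj hb₀ hu
    have e4 : a₀ * ⁅a₀, u⁆ * a₀⁻¹ = ⁅a₀, u⁆ := p.h.PV_conj ha₀ hx
    calc (a₀ * b₀ * a₀) * u * (a₀ * b₀ * a₀)⁻¹ = a₀ * (b₀ * (a₀ * u * a₀⁻¹) * b₀⁻¹) * a₀⁻¹ := by group
      _ = a₀ * ((b₀ * ⁅a₀, u⁆ * b₀⁻¹) * (b₀ * u * b₀⁻¹)) * a₀⁻¹ := by rw [e1]; group
      _ = a₀ * (u * ⁅a₀, u⁆ * u) * a₀⁻¹ := by rw [e2, e3]
      _ = a₀ * (⁅a₀, u⁆ * (u * u)) * a₀⁻¹ := by rw [hUV u hu _ hx]; group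
      _ = ⁅a₀, u⁆ := by rw [p.h'.sq u hu, mul_one, e4]
  · intro v hv
    have hy : ⁅b₀, v⁆ ∈ U := p.h'.comm_mem hb₀ (hVP v hv)
    have e1 : a₀ * v * a₀⁻¹ = v := p.h.PV_conj ha₀ hv
    have e2 : b₀ * v * b₀⁻¹ = ⁅b₀, v⁆ * v := by rw [commutatorElement_def]; group
    have e3 : a₀ * ⁅b₀, v⁆ * a₀⁻¹ = v * ⁅b₀, v⁆ := by
      have : a₀ * ⁅b₀, v⁆ * a₀⁻¹ = ⁅a₀, ⁅b₀, v⁆⁆ * ⁅b₀, v⁆ := by
        rw [commutatorElement_def a₀]; group
      rw [this, h2 v hv]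
    calc (a₀ * b₀ * a₀) * v * (a₀ * b₀ * a₀)⁻¹ = a₀ * (b₀ * (a₀ * v * a₀⁻¹) * b₀⁻¹) * a₀⁻¹ := by group
      _ = a₀ * (⁅b₀, v⁆ * v) * a₀⁻¹ := by rw [e1, e2]
      _ = (a₀ * ⁅b₀, v⁆ * a₀⁻¹) * (a₀ * v * a₀⁻¹) := by group
      _ = v * ⁅b₀, v⁆ * v := by rw [e3, e1]
      _ = v * v * ⁅b₀, v⁆ := by rw [mul_assoc, hUV _ hy v hv, ← mul_assoc]
      _ = ⁅b₀, v⁆ := by rw [p.h.sq v hv, one_mul]

/-- conjugation by `n` swaps -/
theorem conj_PP {n : G} (hnU : conjBy U n = V) : conjBy (PP U QU) n = PP V Q := by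
  obtain ⟨g, hg, hg'⟩ := p.conj
  rw [PP_conjBy, hnU]
  congr 1
  rw [hg', conjBy_conjBy, conjBy_eq_self_iff]
  apply p.h.Qn
  rw [← conjBy_eq_self_iff, ← conjBy_conjBy, ← hg, hnU]

theorem sl2 (H : Subgroup G) (hH : H = PP V Q ⊔ PP U QU)
    (hN : ((centralizer ((V ⊔ U : Subgroup G) : Set G)).subgroupOf H).Normal) :
    ∃ (F : Type) (_ : Field F) (_ : Fintype F), Fintype.card F = Nat.card V ∧
      Nonempty (H ⧸ (centralizer ((V ⊔ U : Subgroup G) : Set G)).subgroupOf H ≃* Matrix.SpecialLinearGroup (Fin 2) F) := by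
  obtain ⟨a₀, ha₀, b₀, hb₀, h1, h2⟩ := p.exists_std
  obtain ⟨hnU, hnV⟩ := p.conj_eqs ha₀ hb₀ h1 h2
  set n := a₀ * b₀ * a₀ with hn
  have hUP : ∀ u ∈ U, u ∈ PP V Q := fun u hu => p.h.out_mem_PP p.o hu
  have hVP : ∀ v ∈ V, v ∈ PP U QU := fun v hv => p.h'.out_mem_PP p.o' hv
  have hUV := p.h.out_comm p.o
  have hbv : ∀ v ∈ V, ⁅b₀, v⁆ ∈ U := fun v hv => p.h'.comm_mem hb₀ (hVP v hv)
  have hau : ∀ u ∈ U, ⁅a₀, u⁆ ∈ V := fun u hu => p.h.comm_mem ha₀ (hUP u hu)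
  have hcVn : conjBy V n = U := by
    apply Subgroup.eq_of_le_of_card_ge
    · intro x hx
      rw [mem_conjBy] at hx
      have := hnV _ hx
      have e : n * (n⁻¹ * x * n) * n⁻¹ = x := by group
      rw [e] at this
      rw [this]; exact hbv _ hx
    · rw [p.h.card_conj, p.h.out_card p.o]
  have hcUn : conjBy U n = V := by
    apply Subgroup.eq_of_le_of_card_ge
    · intro x hx
      rw [mem_conjBy] at hx
      have := hnU _ hx
      have e : n * (n⁻¹ * x * n) * n⁻¹ = x := by group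
      rw [e] at this
      rw [this]; exact hau _ hx
    · rw [p.h'.card_conj, p.h.out_card p.o]
  have hPn := p.conj_PP hcUn
  have hPn1 : ∀ b ∈ PP U QU, n * b * n⁻¹ ∈ PP V Q := fun b hb => by
    rw [← hPn]; exact RankOne.conj_mem_conjBy n hb
  have hPn2 : ∀ c ∈ PP V Q, n⁻¹ * c * n ∈ PP U QU := fun c hc => by
    rw [← hPn, mem_conjBy] at hc; exact hc
  have hswap : ∀ b ∈ PP U QU, ∀ v ∈ V, ⁅n * b * n⁻¹, ⁅b₀, v⁆⁆ = ⁅a₀, ⁅b, v⁆⁆ := by
    intro b hb v hv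
    have e1 := hnV v hv
    have e2 : ⁅b, v⁆ ∈ U := p.h'.comm_mem hb (hVP v hv)
    rw [← hnU _ e2, ← e1]
    simp only [commutatorElement_def]; group
  letI : CommGroup V := { (inferInstance : Group V) with
    mul_comm := fun a b => Subtype.ext (p.h.Vc a.2 b.2) }
  haveI : Nontrivial V := by
    obtain ⟨v, hv, hv1⟩ := p.h.exists_ne
    exact ⟨⟨⟨v, hv⟩, 1, fun h0 => hv1 (congrArg Subtype.val h0)⟩⟩
  haveI : Nontrivial (Additive V) := inferInstance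
  -- value of an endomorphism
  let val : AddMonoid.End (Additive V) → V → V := fun f v => Additive.toMul (f (Additive.ofMul v))
  have val_add : ∀ f g v, val (f + g) v = val f v * val g v := fun f g v => rfl
  have val_mul : ∀ f g v, val (f * g) v = val f (val g v) := fun f g v => rfl
  have val_one : ∀ v, val 1 v = v := fun v => rfl
  have val_zero : ∀ v, val 0 v = 1 := fun v => rfl
  have val_ext : ∀ f g, (∀ v, val f v = val g v) → f = g := fun f g h0 => AddMonoidHom.ext h0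
  have val_map_mul : ∀ f v w, val f (v * w) = val f v * val f w := fun f v w => map_add f _ _
  -- existence
  have hex : ∀ a ∈ PP V Q, ∃ f : AddMonoid.End (Additive V), ∀ v : V, ((val f v : V) : G) = ⁅a, ⁅b₀, (v:G)⁆⁆ := by
    intro a ha
    refine ⟨AddMonoidHom.mk' (fun x : Additive V => Additive.ofMul (⟨⁅a, ⁅b₀, ((Additive.toMul x : V) : G)⁆⁆,
      p.h.comm_mem ha (hUP _ (hbv _ (Subtype.mem _)))⟩ : V)) ?_, fun v => rfl⟩
    intro x y
    apply congrArg Additive.ofMul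
    apply Subtype.ext
    change ⁅a, ⁅b₀, ((Additive.toMul x : V) : G) * ((Additive.toMul y : V) : G)⁆⁆ =
      ⁅a, ⁅b₀, ((Additive.toMul x : V) : G)⁆⁆ * ⁅a, ⁅b₀, ((Additive.toMul y : V) : G)⁆⁆
    rw [p.h'.comm_mul_right hb₀ (hVP _ (Subtype.mem _)) (hVP _ (Subtype.mem _)),
      p.h.comm_mul_right ha (hUP _ (hbv _ (Subtype.mem _))) (hUP _ (hbv _ (Subtype.mem _)))]
  let T : AddSubgroup (AddMonoid.End (Additive V)) :=
    { carrier := {f | ∃ a ∈ PP V Q, ∀ v : V, ((val f v : V) : G) = ⁅a, ⁅b₀, (v:G)⁆⁆}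
      zero_mem' := ⟨1, one_mem _, fun v => by rw [val_zero, commutatorElement_one_left]; rfl⟩
      add_mem' := by
        rintro f g ⟨a, ha, hf⟩ ⟨b, hb, hg⟩
        refine ⟨a * b, mul_mem ha hb, fun v => ?_⟩
        rw [val_add, p.h.comm_mul_left ha hb (hUP _ (hbv _ v.2)), ← hf, ← hg]
        rfl
      neg_mem' := by
        rintro f ⟨a, ha, hf⟩
        refine ⟨a, ha, fun v => ?_⟩
        rw [← hf]
        have : val (-f) v = (val f v)⁻¹ := rfl
        rw [this]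
        exact p.h.inv_eq (val f v).2 }
  have hTmem : ∀ f, f ∈ T ↔ ∃ a ∈ PP V Q, ∀ v : V, ((val f v : V) : G) = ⁅a, ⁅b₀, (v:G)⁆⁆ := fun f => Iff.rfl
  have hTmem' : ∀ f, f ∈ T ↔ ∃ b ∈ PP U QU, ∀ v : V, ((val f v : V) : G) = ⁅a₀, ⁅b, (v:G)⁆⁆ := by
    intro f
    rw [hTmem]
    constructor
    · rintro ⟨c, hc, hf⟩
      refine ⟨n⁻¹ * c * n, hPn2 c hc, fun v => ?_⟩
      rw [hf, ← hswap _ (hPn2 c hc) v v.2]
      congr 1; group
    · rintro ⟨b, hb, hf⟩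
      exact ⟨n * b * n⁻¹, hPn1 b hb, fun v => by rw [hf, hswap b hb v v.2]⟩
  have h20 : (2 : AddMonoid.End (Additive V)) = 0 := by
    apply val_ext
    intro v
    have : (2 : AddMonoid.End (Additive V)) = 1 + 1 := by norm_num
    rw [this, val_add, val_one, val_zero]
    exact Subtype.ext (p.h.sq v v.2)
  have hJT : JDiv.JT T := by
    refine ⟨⟨a₀, ha₀, fun v => by rw [val_one, h2 v v.2]⟩, ?_⟩
    rintro f ⟨a, ha, hf⟩ hf0
    have hna : ¬ ∀ u ∈ U, a * u = u * a := by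
      intro hall
      apply hf0
      apply val_ext
      intro v
      apply Subtype.ext
      rw [hf, comm_eq_one_iff.mpr (hall _ (hbv _ v.2))]
      rfl
    obtain ⟨b, hb, -, -, hba⟩ := p.exists_n ha hna
    obtain ⟨g, hg⟩ := hex _ (hPn1 b hb)
    have hgf : g * f = 1 := by
      apply val_ext
      intro v
      apply Subtype.ext
      rw [val_mul, hg, hswap b hb _ (val f v).2, hf, hba _ (hbv _ v.2), h2 _ v.2, val_one]
    refine ⟨g, ⟨_, hPn1 b hb, hg⟩, ?_, hgf⟩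
    -- f g = 1 by finiteness
    have hinj : Function.Injective (val f) := by
      intro v w hvw
      have e1 : val (g * f) v = val (g * f) w := by rw [val_mul, val_mul, hvw]
      rwa [hgf, val_one, val_one] at e1
    have hsurj : Function.Surjective (val f) := Finite.surjective_of_injective hinj
    apply val_ext
    intro v
    obtain ⟨w, rfl⟩ := hsurj v
    rw [val_mul, ← val_mul g f, hgf, val_one, val_one]
  -- card
  have hcardT : Nat.card T = Nat.card V := by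
    obtain ⟨v₀, hv₀, hv₀1⟩ := p.h.exists_ne
    apply Nat.card_congr
    refine Equiv.ofBijective (fun f : T => val f ⟨v₀, hv₀⟩) ⟨?_, ?_⟩
    · intro f g hfg
      by_contra hne
      have hne' : (f : AddMonoid.End (Additive V)) - g ≠ 0 := fun h0 => hne (Subtype.ext (sub_eq_zero.mp h0))
      obtain ⟨k, hk, -, hk2⟩ := hJT.inv _ (T.sub_mem f.2 g.2) hne'
      have e1 : val ((f : AddMonoid.End (Additive V)) - g) ⟨v₀, hv₀⟩ = 1 := by
        have : val ((f : AddMonoid.End (Additive V)) - g) ⟨v₀, hv₀⟩ =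
          val (f : AddMonoid.End (Additive V)) ⟨v₀, hv₀⟩ / val (g : AddMonoid.End (Additive V)) ⟨v₀, hv₀⟩ := rfl
        rw [this]
        have hfg' : val (f : AddMonoid.End (Additive V)) ⟨v₀, hv₀⟩ = val (g : AddMonoid.End (Additive V)) ⟨v₀, hv₀⟩ := hfg
        rw [hfg', div_self']
      have e2 : val (k * ((f : AddMonoid.End (Additive V)) - g)) ⟨v₀, hv₀⟩ = 1 := by
        rw [val_mul, e1]
        exact map_zero k
      rw [hk2, val_one] at e2
      exact hv₀1 (congrArg Subtype.val e2)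
    · intro w
      have hu1 : ⁅b₀, v₀⁆ ≠ 1 := by
        intro h0
        apply hv₀1
        rw [← h2 v₀ hv₀, h0, commutatorElement_one_right]
      obtain ⟨a, ha, haw⟩ := p.h.exists_comm_eq p.o (hbv v₀ hv₀) hu1 w.2
      obtain ⟨f, hf⟩ := hex a ha
      refine ⟨⟨f, a, ha, hf⟩, ?_⟩
      apply Subtype.ext
      change ((val f ⟨v₀, hv₀⟩ : V) : G) = w
      rw [hf]; exact haw
  -- coordinates
  let e0 : Additive V × Additive V → (V ⊔ U : Subgroup G) := fun q =>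
    ⟨((Additive.toMul q.1 : V) : G) * ⁅b₀, ((Additive.toMul q.2 : V) : G)⁆,
      mul_mem (mem_sup_left (Subtype.mem _)) (mem_sup_right (hbv _ (Subtype.mem _)))⟩
  have e0_inj : Function.Injective e0 := by
    rintro ⟨x, y⟩ ⟨x', y'⟩ hxy
    have e1 : ((Additive.toMul x : V) : G) * ⁅b₀, ((Additive.toMul y : V) : G)⁆ =
      ((Additive.toMul x' : V) : G) * ⁅b₀, ((Additive.toMul y' : V) : G)⁆ := congrArg Subtype.val hxy
    have e2 : (((Additive.toMul x' : V) : G))⁻¹ * ((Additive.toMul x : V) : G) =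
      ⁅b₀, ((Additive.toMul y' : V) : G)⁆ * (⁅b₀, ((Additive.toMul y : V) : G)⁆)⁻¹ := by
      rw [inv_mul_eq_iff_eq_mul, ← mul_assoc, eq_mul_inv_iff_mul_eq]; exact e1
    have e3 := p.h.out_inf p.o _ (mul_mem (hbv _ (Subtype.mem (Additive.toMul y')))
      (inv_mem (hbv _ (Subtype.mem (Additive.toMul y))))) (by
        rw [← e2]; exact mul_mem (inv_mem (Subtype.mem _)) (Subtype.mem _))
    have e4 : ⁅b₀, ((Additive.toMul y' : V) : G)⁆ = ⁅b₀, ((Additive.toMul y : V) : G)⁆ := mul_inv_eq_one.mp e3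
    have e5 : ((Additive.toMul y' : V) : G) = ((Additive.toMul y : V) : G) := by
      rw [← h2 _ (Subtype.mem (Additive.toMul y')), e4, h2 _ (Subtype.mem (Additive.toMul y))]
    rw [e4] at e1
    have e6 : ((Additive.toMul x : V) : G) = ((Additive.toMul x' : V) : G) := mul_right_cancel e1
    have e7 : x = x' := Additive.toMul.injective (Subtype.ext e6)
    have e8 : y = y' := Additive.toMul.injective (Subtype.ext e5.symm)
    rw [e7, e8]
  have e0_surj : Function.Surjective e0 := by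
    rintro ⟨w, hw⟩
    obtain ⟨v, hv, u, hu, rfl⟩ := (p.h.mem_W p.o).mp hw
    refine ⟨(Additive.ofMul ⟨v, hv⟩, Additive.ofMul ⟨⁅a₀, u⁆, hau u hu⟩), ?_⟩
    apply Subtype.ext
    change v * ⁅b₀, ⁅a₀, u⁆⁆ = v * u
    rw [h1 u hu]
  let e : Additive V × Additive V ≃ (V ⊔ U : Subgroup G) := Equiv.ofBijective e0 ⟨e0_inj, e0_surj⟩
  have e_val : ∀ x y : V, ((e (Additive.ofMul x, Additive.ofMul y) : (V ⊔ U : Subgroup G)) : G) =
      (x:G) * ⁅b₀, (y:G)⁆ := fun x y => rfl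
  -- the action
  have hHN : H ≤ normalizer ((V ⊔ U : Subgroup G) : Set G) := by
    rw [hH]
    apply sup_le (p.h.PP_le_NW p.o)
    have := p.h'.PP_le_NW p.o'
    rwa [sup_comm] at this
  have hact : ∀ x ∈ H, ∀ w ∈ V ⊔ U, x * w * x⁻¹ ∈ V ⊔ U := fun x hx w hw =>
    (mem_normalizer_iff.mp (hHN hx) w).mp hw
  let ρ : H →* Equiv.Perm (V ⊔ U : Subgroup G) :=
    { toFun := fun x =>
        { toFun := fun w => ⟨x * w * (x:G)⁻¹, hact x x.2 w w.2⟩
          invFun := fun w => ⟨(x:G)⁻¹ * w * x, by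
            have := hact _ (inv_mem x.2) w w.2
            rwa [inv_inv] at this⟩
          left_inv := fun w => Subtype.ext (by
            change (x:G)⁻¹ * (x * w * (x:G)⁻¹) * x = w
            group)
          right_inv := fun w => Subtype.ext (by
            change (x:G) * ((x:G)⁻¹ * w * x) * (x:G)⁻¹ = w
            group) }
      map_one' := by
        apply Equiv.ext
        intro w
        apply Subtype.ext
        change (1:G) * w * (1:G)⁻¹ = w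
        group
      map_mul' := by
        intro x y
        apply Equiv.ext
        intro w
        apply Subtype.ext
        change (x * y : G) * w * (x * y : G)⁻¹ = x * (y * w * (y:G)⁻¹) * (x:G)⁻¹
        group }
  have hρ : ∀ (x : H) (w : (V ⊔ U : Subgroup G)), ((ρ x w : (V ⊔ U : Subgroup G)) : G) = x * w * (x:G)⁻¹ :=
    fun x w => rfl
  have hker : ρ.ker = (centralizer ((V ⊔ U : Subgroup G) : Set G)).subgroupOf H := by
    ext x
    rw [MonoidHom.mem_ker, mem_subgroupOf, mem_centralizer_iff]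
    constructor
    · intro h0 w hw
      have e1 := congrArg (fun π : Equiv.Perm (V ⊔ U : Subgroup G) => ((π ⟨w, hw⟩ : (V ⊔ U : Subgroup G)) : G)) h0
      have e2 : (x:G) * w * (x:G)⁻¹ = w := e1
      exact (mul_inv_eq_iff_eq_mul.mp e2).symm
    · intro h0
      apply Equiv.ext
      intro w
      apply Subtype.ext
      rw [hρ]
      rw [← h0 w w.2, mul_inv_cancel_right]
      rfl
  have hX1 : PP V Q ≤ H := by rw [hH]; exact le_sup_left
  have hY1 : PP U QU ≤ H := by rw [hH]; exact le_sup_right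
  have hXY : (PP V Q).subgroupOf H ⊔ (PP U QU).subgroupOf H = ⊤ := by
    rw [← Subgroup.subgroupOf_sup hX1 hY1, ← hH, Subgroup.subgroupOf_self]
  have hXX : ∀ x : H, ∀ (hx : (x:G) ∈ PP V Q) (f : AddMonoid.End (Additive V)),
      (∀ v : V, ((val f v : V) : G) = ⁅(x:G), ⁅b₀, (v:G)⁆⁆) → ∀ a b, ρ x (e (a, b)) = e (a + f b, b) := by
    intro x hx f hf a b
    apply Subtype.ext
    rw [hρ]
    change (x:G) * (((Additive.toMul a : V) : G) * ⁅b₀, ((Additive.toMul b : V) : G)⁆) * (x:G)⁻¹ =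
      ((Additive.toMul a : V) : G) * ((val f (Additive.toMul b) : V) : G) * ⁅b₀, ((Additive.toMul b : V) : G)⁆
    rw [hf]
    have e1 := p.h.PV_conj hx (Subtype.mem (Additive.toMul a))
    calc (x:G) * (((Additive.toMul a : V) : G) * ⁅b₀, ((Additive.toMul b : V) : G)⁆) * (x:G)⁻¹
        = ((x:G) * ((Additive.toMul a : V) : G) * (x:G)⁻¹) * ((x:G) * ⁅b₀, ((Additive.toMul b : V) : G)⁆ * (x:G)⁻¹) := by
          group
      _ = _ := by
          rw [e1, commutatorElement_def (x:G)]; group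
  have hYY : ∀ y : H, ∀ (hy : (y:G) ∈ PP U QU) (f : AddMonoid.End (Additive V)),
      (∀ v : V, ((val f v : V) : G) = ⁅a₀, ⁅(y:G), (v:G)⁆⁆) → ∀ a b, ρ y (e (a, b)) = e (a, f a + b) := by
    intro y hy f hf a b
    apply Subtype.ext
    rw [hρ]
    change (y:G) * (((Additive.toMul a : V) : G) * ⁅b₀, ((Additive.toMul b : V) : G)⁆) * (y:G)⁻¹ =
      ((Additive.toMul a : V) : G) * ⁅b₀, ((val f (Additive.toMul a) : V) : G) * ((Additive.toMul b : V) : G)⁆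
    have hya : ⁅(y:G), ((Additive.toMul a : V) : G)⁆ ∈ U := p.h'.comm_mem hy (hVP _ (Subtype.mem _))
    rw [p.h'.comm_mul_right hb₀ (hVP _ (Subtype.mem _)) (hVP _ (Subtype.mem _)), hf, h1 _ hya]
    have e1 := p.h'.PV_conj hy (hbv _ (Subtype.mem (Additive.toMul b)))
    have e2 := hUV _ hya _ (Subtype.mem (Additive.toMul a))
    calc (y:G) * (((Additive.toMul a : V) : G) * ⁅b₀, ((Additive.toMul b : V) : G)⁆) * (y:G)⁻¹
        = ((y:G) * ((Additive.toMul a : V) : G) * (y:G)⁻¹) * ((y:G) * ⁅b₀, ((Additive.toMul b : V) : G)⁆ * (y:G)⁻¹) := by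
          group
      _ = (⁅(y:G), ((Additive.toMul a : V) : G)⁆ * ((Additive.toMul a : V) : G)) * ⁅b₀, ((Additive.toMul b : V) : G)⁆ := by
          rw [e1, commutatorElement_def (y:G)]; group
      _ = _ := by rw [e2, mul_assoc]
  have := JDiv.sl2_of_JT hJT h20 e ρ ((PP V Q).subgroupOf H) ((PP U QU).subgroupOf H) hXY
    (by
      intro x hx
      obtain ⟨f, hf⟩ := hex x hx
      exact ⟨f, ⟨x, hx, hf⟩, hXX x hx f hf⟩)
    (by
      rintro f ⟨a, ha, hf⟩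
      exact ⟨⟨a, hX1 ha⟩, ha, hXX ⟨a, hX1 ha⟩ ha f hf⟩)
    (by
      intro y hy
      obtain ⟨f, hf⟩ := hex _ (hPn1 y hy)
      have hf' : ∀ v : V, ((val f v : V) : G) = ⁅a₀, ⁅(y:G), (v:G)⁆⁆ := fun v => by
        rw [hf, hswap y hy v v.2]
      exact ⟨f, ⟨_, hPn1 y hy, hf⟩, hYY y hy f hf'⟩)
    (by
      intro f hf
      obtain ⟨b, hb, hf'⟩ := (hTmem' f).mp hf
      exact ⟨⟨b, hY1 hb⟩, hb, hYY ⟨b, hY1 hb⟩ hb f hf'⟩)
  obtain ⟨F, i1, i2, hcard, ⟨φ⟩⟩ := this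
  refine ⟨F, i1, i2, by rw [hcard, hcardT], ⟨?_⟩⟩
  exact (QuotientGroup.quotientMulEquivOfEq hker.symm).trans φ

end Pr

end Cfsg.Agent.H84.TI
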